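import Cfsg.Agent.Lib.GenJ.Sys
import Cfsg.Agent.Lib.Fusion.FunctorNormal
import Cfsg.Agent.Lib.Fusion.AdmSat
import Cfsg.Agent.S5096
import Mathlib

/-! # Generation by `C_F(℧¹ Z(S))` and `N_F(J(S))`: climbing -/

set_option autoImplicit false

namespace Cfsg.Agent.Lib.GenJ

open Cfsg Cfsg.FusionSystem Cfsg.Agent.Lib.Fusion

universe u

variable {Ω : Type u} [Group Ω] {p : ℕ} [Fact p.Prime]

section basics

variable {T : Subgroup Ω}

theorem hom_mem_JT_range {X : FusionSystem T} {P : Subgroup Ω} {α : P →* Ω} (hα : α ∈ X.Hom P) (x : P) :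
    (x : Ω) ∈ JT P ↔ α x ∈ JT α.range := by
  have h := mem_JT_equiv (MonoidHom.ofInjective (hom_inj X hα)) (x := x)
  rwa [MonoidHom.ofInjective_apply] at h

/-- Automorphisms preserve `J`. -/
theorem map_JT_of_range [Finite T] {X : FusionSystem T} {P : Subgroup Ω} {α : P →* Ω} (hα : α ∈ X.Hom P) (hr : α.range = P) :
    ((JT P).subgroupOf P).map α = JT P := by
  have hJP : JT P ≤ P := JT_le P
  apply le_antisymm
  · rintro _ ⟨a, ha, rfl⟩
    have h1 := (hom_mem_JT_range hα a).1 (Subgroup.mem_subgroupOf.1 ha)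
    rwa [hr] at h1
  · intro y hy
    have hyr : y ∈ α.range := by rw [hr]; exact hJP hy
    obtain ⟨a, rfl⟩ := hyr
    refine ⟨a, Subgroup.mem_subgroupOf.2 ((hom_mem_JT_range hα a).2 ?_), rfl⟩
    rwa [hr]

/-- Transport of a map along a conjugation. -/
theorem conj_transport {X : FusionSystem T} {U : Subgroup Ω} {χ : U →* Ω} (hχ : χ ∈ X.Hom U) {φ : U →* Ω}
    (hφ : φ ∈ X.Hom U) (hφU : ∀ x, φ x ∈ U) {φ₂ : χ.range →* Ω}
    (hφ₂ : ∀ a : U, φ₂ ⟨χ a, ⟨a, rfl⟩⟩ = χ ⟨φ a, hφU a⟩) : φ₂ ∈ X.Hom χ.range := by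
  obtain ⟨ξ, hξ, hξv⟩ := X.inv_mem hχ
  have hξU : ∀ y : χ.range, ξ y ∈ U := by
    rintro ⟨_, a, rfl⟩
    rw [hξv]
    exact a.2
  have h1 := X.comp_mem hξ hφ hξU
  have h1v : ∀ y : χ.range, (φ.comp (ξ.codRestrict U hξU)) y ∈ U := fun y => hφU _
  have h2 := X.comp_mem h1 hχ h1v
  refine hom_congr X h2 ?_
  rintro ⟨_, a, rfl⟩
  rw [hφ₂]
  show χ ⟨φ a, hφU a⟩ = χ (⟨φ (ξ.codRestrict U hξU ⟨χ a, ⟨a, rfl⟩⟩), _⟩)
  congr 2
  congr 1
  apply Subtype.ext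
  exact (hξv a).symm

/-- A normal subgroup's Thompson subgroup is normal. -/
theorem isNormal_JT [Finite T] {F : FusionSystem T} {Q : Subgroup Ω} (hQ : F.IsNormal Q) : F.IsNormal (JT Q) := by
  have hQS := hQ.1
  have hJQ : JT Q ≤ Q := JT_le Q
  refine ⟨hJQ.trans hQS, fun P φ hφ => ?_⟩
  obtain ⟨ψ, hψ, hψP, hψQ⟩ := hQ.2 P φ hφ
  have hle : P ⊔ JT Q ≤ P ⊔ Q := sup_le_sup_left hJQ P
  have hQ1 : Q ≤ P ⊔ Q := le_sup_right
  have hψ₀ := res_mem F hψ hQ1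
  have hr : (ψ.comp (Subgroup.inclusion hQ1)).range = Q := by
    apply le_antisymm
    · rintro _ ⟨a, rfl⟩
      have h1 : ψ (Subgroup.inclusion hQ1 a) ∈ (Q.subgroupOf (P ⊔ Q)).map ψ := ⟨_, Subgroup.mem_subgroupOf.2 a.2, rfl⟩
      rwa [hψQ] at h1
    · intro y hy
      have hy' : y ∈ (Q.subgroupOf (P ⊔ Q)).map ψ := by rwa [hψQ]
      obtain ⟨a, ha, rfl⟩ := hy'
      exact ⟨⟨a, Subgroup.mem_subgroupOf.1 ha⟩, rfl⟩
  have hmap := map_JT_of_range hψ₀ hr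
  refine ⟨ψ.comp (Subgroup.inclusion hle), res_mem F hψ hle, fun x => hψP x, ?_⟩
  apply le_antisymm
  · rintro _ ⟨a, ha, rfl⟩
    have ha' : (a : Ω) ∈ JT Q := Subgroup.mem_subgroupOf.1 ha
    have h1 : (ψ.comp (Subgroup.inclusion hQ1)) ⟨a, hJQ ha'⟩ ∈ ((JT Q).subgroupOf Q).map (ψ.comp (Subgroup.inclusion hQ1)) :=
      ⟨_, Subgroup.mem_subgroupOf.2 ha', rfl⟩
    rw [hmap] at h1
    exact h1
  · intro y hy
    have hy' : y ∈ ((JT Q).subgroupOf Q).map (ψ.comp (Subgroup.inclusion hQ1)) := by rwa [hmap]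
    obtain ⟨a, ha, rfl⟩ := hy'
    have ha' : (a : Ω) ∈ JT Q := Subgroup.mem_subgroupOf.1 ha
    exact ⟨⟨a, (le_sup_right : JT Q ≤ P ⊔ JT Q) ha'⟩, Subgroup.mem_subgroupOf.2 ha', rfl⟩

end basics

section main

variable {S : Subgroup Ω}

/-- What is required of `E`. -/
structure GenHyp (p : ℕ) (F E : FusionSystem S) : Prop where
  hEF : ∀ P, E.Hom P ⊆ F.Hom P
  hC : ∀ P, F.centralizerHom (ZP p S) P ⊆ E.Hom P
  hN : ∀ P, F.normalizerHom (JT S) P ⊆ E.Hom P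

/-- The induction hypothesis. -/
def GenIH (p : ℕ) (Ω : Type u) [Group Ω] (n : ℕ) : Prop :=
  ∀ (S : Subgroup Ω) [Finite S], IsPGroup p S → ∀ F : FusionSystem S, F.IsSaturated p →
    2 * Nat.card S - Nat.card F.core < n → ∀ E : FusionSystem S, GenHyp p F E → ∀ P, F.Hom P ⊆ E.Hom P

variable [Finite S] {F E : FusionSystem S}

theorem hF_of_normalizer {U₀ : Subgroup Ω} {N₀ : FusionSystem (normalizerIn S U₀)} (hN₀ : F.IsNormalizerSystem U₀ N₀) :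
    ∀ P, N₀.Hom P ⊆ F.Hom P := fun P φ h => by
  rw [hN₀ P] at h
  exact h.1

/-- Use of the induction hypothesis on a normalizer system. -/
theorem apply_IH {n : ℕ} (IH : GenIH p Ω n) (hn : 2 * Nat.card S - Nat.card F.core ≤ n) (hS : IsPGroup p S) (hF : F.IsSaturated p)
    (hy : GenHyp p F E) {U₀ : Subgroup Ω} (hfn : F.IsFullyNormalized U₀) (hne : ¬ U₀ ≤ F.core)
    {N₀ : FusionSystem (normalizerIn S U₀)} (hN₀ : F.IsNormalizerSystem U₀ N₀) (D : Set (Subgroup Ω))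
    (hD : ∀ P ∈ D, ∀ φ ∈ N₀.Hom P, φ.range ∈ D)
    (hres : ∀ R ∈ D, ∀ Q, Q ∉ D → R ≤ Q → ∀ ψ ∈ N₀.Hom Q, ψ ∈ E.Hom Q)
    (hJ : ∀ P ∈ D, ∀ φ ∈ N₀.normalizerHom (JT (normalizerIn S U₀)) P, φ ∈ E.Hom P) :
    ∀ P ∈ D, ∀ φ ∈ N₀.Hom P, φ ∈ E.Hom P := by
  have hU₀S := hfn.1
  have : Finite (normalizerIn S U₀) := finite_of_le (normalizerIn_le U₀)
  have hNF := hF_of_normalizer hN₀
  have : Finite U₀ := finite_of_le hU₀S
  have hle : ∀ P, N₀.Hom P ⊆ (classSys N₀ E (normalizerIn_le U₀) D hD hres).Hom P := by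
    refine IH _ (hS.to_le (normalizerIn_le U₀)) N₀ (isSaturated_normalizerSystem hS hF hfn hN₀)
      (measure_normalizer' hS hn hU₀S hne hN₀) _ ⟨fun P φ h => h.1, fun P φ h => ⟨h.1, fun hP => ?_⟩, fun P φ h => ⟨h.1, fun hP => hJ P hP _ h⟩⟩
    refine hy.hC P (centralizerHom_mono (normalizerIn_le U₀) hNF (ZP_mono (normalizerIn_le U₀) ?_) h)
    rintro z ⟨hzS, hzc⟩
    refine mem_normalizerIn.2 ⟨hzS, mem_normalizer_of_forall fun x hx => ?_⟩
    have h1 : z * x = x * z := (Subgroup.mem_centralizer_iff.1 hzc x (hU₀S hx)).symm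
    rw [h1]
    simpa using hx
  exact fun P hP φ hφ => (hle P hφ).2 hP

/-- Transport back. -/
theorem conj_transport_back {T : Subgroup Ω} {X : FusionSystem T} {U : Subgroup Ω} {χ : U →* Ω} (hχ : χ ∈ X.Hom U) {φ : U →* Ω}
    (hφU : ∀ x, φ x ∈ U) {φ₂ : χ.range →* Ω} (hφ₂X : φ₂ ∈ X.Hom χ.range)
    (hφ₂ : ∀ a : U, φ₂ ⟨χ a, ⟨a, rfl⟩⟩ = χ ⟨φ a, hφU a⟩) : φ ∈ X.Hom U := by
  obtain ⟨ξ, hξ, hξv⟩ := X.inv_mem hχ
  have hv1 : ∀ a : U, χ a ∈ χ.range := fun a => ⟨a, rfl⟩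
  have h1 := X.comp_mem hχ hφ₂X hv1
  have hv2 : ∀ a : U, (φ₂.comp (χ.codRestrict χ.range hv1)) a ∈ χ.range := by
    intro a
    show φ₂ ⟨χ a, ⟨a, rfl⟩⟩ ∈ χ.range
    rw [hφ₂]
    exact ⟨_, rfl⟩
  have h2 := X.comp_mem h1 hξ hv2
  refine hom_congr X h2 fun a => ?_
  show φ a = ξ ⟨φ₂ ⟨χ a, ⟨a, rfl⟩⟩, hv2 a⟩
  have e1 : (⟨φ₂ ⟨χ a, ⟨a, rfl⟩⟩, hv2 a⟩ : χ.range) = ⟨χ ⟨φ a, hφU a⟩, ⟨_, rfl⟩⟩ := Subtype.ext (hφ₂ a)
  rw [e1, hξv]

/-- If `J(N_S(U)) ≤ U` and `J(U)` is normal in the system, the system is constrained. -/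
theorem constrained_of_normal_JT (hS : IsPGroup p S) (hF : F.IsSaturated p) {U : Subgroup Ω} (hUS : U ≤ S)
    (hJ : JT (normalizerIn S U) ≤ U) (hn : F.IsNormal (JT U)) : F.IsConstrained p := by
  have : Finite (normalizerIn S U) := finite_of_le (normalizerIn_le U)
  have : Finite U := finite_of_le hUS
  have hUS₁ : U ≤ normalizerIn S U := le_normalizerIn hUS
  have hJeq : JT U = JT (normalizerIn S U) := JT_eq_of_le hUS₁ hJ
  have hJ₁U : JT U ≤ U := JT_le U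
  have hJ₁S : JT U ≤ S := hn.1
  have hSN : S ≤ Subgroup.normalizer (JT U : Set Ω) := StronglyClosed.le_normalizer (IsNormal.stronglyClosed hn)
  have hCC : ∀ x ∈ centralizerIn S (JT U), x ∈ normalizerIn S U → x ∈ JT U := by
    intro x hx hxN
    have h1 : x ∈ centralizerIn (normalizerIn S U) (JT (normalizerIn S U)) :=
      mem_centralizerIn.2 ⟨hxN, fun y hy => (mem_centralizerIn.1 hx).2 y (hJeq ▸ hy)⟩
    have h2 := centralizerIn_funW_thompson_le (normalizerIn S U) h1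
    rw [hJeq]
    exact h2
  have hCn : ∀ s ∈ S, ∀ c ∈ centralizerIn S (JT U), s * c * s⁻¹ ∈ centralizerIn S (JT U) := by
    intro s hs c hc
    obtain ⟨hcS, hcc⟩ := mem_centralizerIn.1 hc
    refine mem_centralizerIn.2 ⟨S.mul_mem (S.mul_mem hs hcS) (S.inv_mem hs), fun y hy => ?_⟩
    have hy' : s⁻¹ * y * s⁻¹⁻¹ ∈ JT U := (Subgroup.mem_normalizer_iff.1 (hSN (S.inv_mem hs)) y).1 hy
    have h1 := hcc _ hy'
    calc y * (s * c * s⁻¹) = s * ((s⁻¹ * y * s⁻¹⁻¹) * c) * s⁻¹ := by group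
      _ = s * (c * (s⁻¹ * y * s⁻¹⁻¹)) * s⁻¹ := by rw [h1]
      _ = s * c * s⁻¹ * y := by group
  have hCle : centralizerIn S (JT U) ≤ JT U := by
    by_contra hnot
    have hCS₁ : ¬ centralizerIn S (JT U) ≤ normalizerIn S U := fun h => hnot fun x hx => hCC x hx (h hx)
    have hYS : normalizerIn S U ⊔ centralizerIn S (JT U) ≤ S := sup_le (normalizerIn_le U) (centralizerIn_le _)
    have hlt0 : normalizerIn S U < normalizerIn S U ⊔ centralizerIn S (JT U) :=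
      lt_of_le_of_ne le_sup_left fun h => hCS₁ (h ▸ (le_sup_right : centralizerIn S (JT U) ≤ normalizerIn S U ⊔ centralizerIn S (JT U)))
    have : Finite ↥(normalizerIn S U ⊔ centralizerIn S (JT U)) := finite_of_le hYS
    have hlt := lt_normalizerIn (hS.to_le hYS) hlt0
    obtain ⟨y, hyN, hyS₁⟩ := SetLike.exists_of_lt hlt
    obtain ⟨hyY, hyNN⟩ := mem_normalizerIn.1 hyN
    have hS₁C : normalizerIn S U ≤ Subgroup.normalizer (centralizerIn S (JT U) : Set Ω) := by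
      intro s hs
      have hsS := normalizerIn_le U hs
      have : Finite ↥(centralizerIn S (JT U)) := finite_of_le (centralizerIn_le _)
      exact mem_normalizer_of_forall fun c hc => hCn s hsS c hc
    rw [sup_comm] at hyY
    obtain ⟨c, hc, s, hs, rfl⟩ := exists_mul_of_mem_sup hS₁C hyY
    have hcS : c ∈ S := centralizerIn_le _ hc
    have hcN : c ∈ Subgroup.normalizer (normalizerIn S U : Set Ω) := by
      have h1 : c = (c * s) * s⁻¹ := by group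
      rw [h1]
      exact Subgroup.mul_mem _ hyNN (Subgroup.inv_mem _ (Subgroup.le_normalizer hs))
    have hcU : c ∈ Subgroup.normalizer (U : Set Ω) := by
      refine mem_normalizer_of_forall fun u hu => ?_
      have hus : u ∈ normalizerIn S U := hUS₁ hu
      have h1 : c * u * c⁻¹ ∈ normalizerIn S U := (Subgroup.mem_normalizer_iff.1 hcN u).1 hus
      have h2 : c * u * c⁻¹ * u⁻¹ ∈ normalizerIn S U := Subgroup.mul_mem _ h1 (Subgroup.inv_mem _ hus)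
      have h3 : c * u * c⁻¹ * u⁻¹ ∈ centralizerIn S (JT U) := by
        have h4 : c * u * c⁻¹ * u⁻¹ = c * (u * c⁻¹ * u⁻¹) := by group
        rw [h4]
        exact Subgroup.mul_mem _ hc (hCn u (hUS hu) _ (Subgroup.inv_mem _ hc))
      have h5 := hJ₁U (hCC _ h3 h2)
      have h6 : c * u * c⁻¹ = (c * u * c⁻¹ * u⁻¹) * u := by group
      rw [h6]
      exact U.mul_mem h5 hu
    apply hyS₁
    exact Subgroup.mul_mem _ (mem_normalizerIn.2 ⟨hcS, hcU⟩) hs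
  refine ⟨hF, JT U, hn, hJ₁S, fun Q hQ => ?_⟩
  obtain ⟨ψ, hψ, rfl⟩ := hQ
  have hwc := (StronglyClosed.weaklyClosed (IsNormal.stronglyClosed hn)).2 ψ hψ
  rw [hwc]
  exact hCle

end main

end Cfsg.Agent.Lib.GenJ
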