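import Cfsg.Agent.Lib.GenJ.Model
import Mathlib

/-! # Generation by `C_F(℧¹ Z(S))` and `N_F(J(S))` -/

set_option autoImplicit false

namespace Cfsg.Agent.Lib.GenJ

open Cfsg Cfsg.FusionSystem Cfsg.Agent.Lib.Fusion
open Cfsg.Agent.Lib.FrobThm (AA JJ EA EA.sup EA.mono le_JJ JJ_le thompson_replacement thompsonSubgroupAOf_eq_JJ)

universe u

variable {Ω : Type u} [Group Ω] {p : ℕ} [Fact p.Prime] {S : Subgroup Ω} [Finite S] {F E : FusionSystem S}

/-- The constrained case. -/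
theorem constrained_case {n : ℕ} (IH : GenIH p Ω n) (hn : 2 * Nat.card S - Nat.card F.core ≤ n) (hS : IsPGroup p S) (hF : F.IsSaturated p)
    (hy : GenHyp p F E) (hcon : F.IsConstrained p) : ∀ P, F.Hom P ⊆ E.Hom P := by
  obtain ⟨-, Q₀, hQ₀n, hQ₀c⟩ := hcon
  obtain ⟨G, _, ι, hmod⟩ := exists_model hS hF hQ₀n hQ₀c
  have hcore := IsModel.core_eq hmod hS
  obtain ⟨hfin, hreal, ⟨T₀, hT₀⟩, hC⟩ := hmod
  have hι := hreal.1
  obtain ⟨R, hRn, hRQ, hRc, hRZ, hRE⟩ := model_group_facts (P := ι.range) ⟨T₀, hT₀⟩ hC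
  obtain ⟨W, hW⟩ : ∃ W, W = powerClosure p 1 R := ⟨_, rfl⟩
  have hWn : W.Normal := hW ▸ powerClosure_normal hRn p
  obtain ⟨Cw, hCw⟩ : ∃ Cw : Subgroup G, Cw = Subgroup.centralizer (W : Set G) := ⟨_, rfl⟩
  have hCwn : Cw.Normal := hCw ▸ centralizer_normal' hWn
  have hTS : preimageAlong ι Cw ≤ S := preimageAlong_le _
  have : Finite (preimageAlong ι Cw) := finite_of_le hTS
  have hNT : normalizerIn S (preimageAlong ι Cw) = S := by
    refine le_antisymm (normalizerIn_le _) fun s hs => mem_normalizerIn.2 ⟨hs, mem_normalizer_of_forall fun x hx => ?_⟩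
    obtain ⟨hxS, hxC⟩ := mem_preimageAlong.1 hx
    refine mem_preimageAlong.2 ⟨S.mul_mem (S.mul_mem hs hxS) (S.inv_mem hs), ?_⟩
    have h1 : ι ⟨s * x * s⁻¹, S.mul_mem (S.mul_mem hs hxS) (S.inv_mem hs)⟩ = ι ⟨s, hs⟩ * ι ⟨x, hxS⟩ * (ι ⟨s, hs⟩)⁻¹ := by
      rw [← map_inv, ← map_mul, ← map_mul]
      rfl
    rw [h1]
    exact hCwn.conj_mem _ hxC _
  have hZPW : ZP p S ≤ preimageAlong ι W := by
    refine (Subgroup.closure_le _).2 ?_
    rintro _ ⟨z, hz, rfl⟩
    refine mem_preimageAlong.2 ⟨S.pow_mem hz.1 _, ?_⟩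
    have h1 : ι ⟨z ^ p ^ 1, S.pow_mem hz.1 _⟩ = (ι ⟨z, hz.1⟩) ^ p ^ 1 := by
      rw [← map_pow]
      rfl
    rw [h1, hW]
    refine Subgroup.subset_closure ⟨_, hRZ _ ⟨_, rfl⟩ ?_, rfl⟩
    rintro _ ⟨s, rfl⟩
    rw [← map_mul, ← map_mul]
    congr 1
    exact Subtype.ext (Subgroup.mem_centralizer_iff.1 hz.2 s s.2)
  by_cases hTcore : preimageAlong ι Cw ≤ F.core
  · -- `J(S)` is normal in the system
    have hJJ := jj_le_pCore (P := ι.range) ⟨T₀, hT₀⟩ hRn hRQ hRc hRE (by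
      rintro _ ⟨s, rfl⟩ hc
      rw [← hW, ← hCw] at hc
      have h1 : (s : Ω) ∈ preimageAlong ι Cw := mem_preimageAlong.2 ⟨s.2, hc⟩
      have h2 := hTcore h1
      rw [hcore] at h2
      exact (mem_preimageAlong.1 h2).2)
    have hJcore : JT S ≤ F.core := by
      rintro _ ⟨s, hs, rfl⟩
      have h2 : MonoidHom.ofInjective hι s ∈ thompsonSubgroupA ι.range := by
        rw [← thompsonSubgroupA_map_equiv (MonoidHom.ofInjective hι)]
        exact ⟨s, hs, rfl⟩
      have h3 : ι s ∈ thompsonSubgroupAOf ι.range := ⟨_, h2, MonoidHom.ofInjective_apply hι⟩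
      rw [thompsonSubgroupAOf_eq_JJ] at h3
      have h4 := hJJ h3
      rw [hcore]
      exact mem_preimageAlong.2 ⟨s.2, h4⟩
    have hcoreS : F.core ≤ S := (isNormal_core (F := F)).1
    have hJeq : JT F.core = JT S := JT_eq_of_le hcoreS hJcore
    have hJn : F.IsNormal (JT S) := hJeq ▸ isNormal_JT (isNormal_core (F := F))
    have hNJ : normalizerIn S (JT S) = S := normalizerIn_funW hS thompsonSubgroupA_inv
    intro P φ hφ
    obtain ⟨ψ, hψ, hext, hmap⟩ := hJn.2 P φ hφ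
    refine hy.hN P ⟨hφ, ?_, fun x => ?_, ψ, hψ, hext, hmap⟩
    · rw [hNJ]
      exact hom_le F hφ
    · rw [hNJ]
      exact hom_val F hφ x
  · -- the normalizer system of `T` lies in `E`
    have hfnT : F.IsFullyNormalized (preimageAlong ι Cw) :=
      ⟨hTS, fun R _ => by
        rw [hNT]
        exact card_le_of_le le_rfl (normalizerIn_le R)⟩
    obtain ⟨NT, hNTs⟩ := Cfsg.Agent.S5096.result F _ hTS
    have hNF := hF_of_normalizer hNTs
    have hNTE : ∀ P ∈ (Set.univ : Set (Subgroup Ω)), ∀ φ ∈ NT.Hom P, φ ∈ E.Hom P :=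
      apply_IH IH hn hS hF hy hfnT hTcore hNTs Set.univ (fun _ _ _ _ => trivial) (fun _ _ _ hQ => absurd trivial hQ)
        (fun P _ φ hφ => by
          have h1 := Cfsg.Agent.Lib.FocalW.normalizerHom_mono (normalizerIn_le _) hNF _ P hφ
          rw [hNT] at h1
          exact hy.hN P h1)
    by_contra hne
    have hne' : ∃ (R : Subgroup Ω) (φ : R →* Ω), φ ∈ F.Hom R ∧ φ ∉ E.Hom R := by
      by_contra hcon'
      push Not at hcon'
      exact hne fun P φ h => hcon' P φ h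
    obtain ⟨U, hfn, hcen, ⟨α, hα, hαE⟩, DH⟩ := exists_notin_max hS hF le_rfl hne'
    have hUS := hfn.1
    have : Finite U := finite_of_le hUS
    have hφ : U.subtype.comp α.toMonoidHom ∈ F.Hom U := (mem_autGroup_iff hUS).1 hα
    have hφU : ∀ x : U, (U.subtype.comp α.toMonoidHom) x ∈ U := fun x => (α x).2
    obtain ⟨φ, hφe⟩ : ∃ φ : U →* Ω, φ = U.subtype.comp α.toMonoidHom := ⟨_, rfl⟩
    rw [← hφe] at hφ hφU hαE
    obtain ⟨g, hg⟩ := IsRealizedBy.exists_conj hreal hφ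
    have hiU : ∀ u : U, ι ⟨u, hUS u.2⟩ ∈ imS ι U := fun u => mem_imS.2 ⟨⟨u, hUS u.2⟩, u.2, rfl⟩
    have hfinU : Finite (imS ι U) := Finite.of_injective (fun y => (y : G)) Subtype.val_injective
    have hgN : g ∈ Subgroup.normalizer (imS ι U : Set G) := by
      refine mem_normalizer_of_forall fun y hy' => ?_
      obtain ⟨u, hu, rfl⟩ := mem_imS.1 hy'
      have h1 := hg ⟨u, hu⟩
      have h2 : g * ι u * g⁻¹ = ι ⟨φ ⟨u, hu⟩, hom_val F hφ _⟩ := h1.symm
      rw [h2]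
      exact mem_imS.2 ⟨_, hφU _, rfl⟩
    by_cases hTU : preimageAlong ι Cw ≤ U
    · -- `g` normalizes `T`
      have hUN : U ≤ normalizerIn S (preimageAlong ι Cw) := by
        rw [hNT]
        exact hUS
      have hle : ((preimageAlong ι Cw).subgroupOf U).map φ ≤ preimageAlong ι Cw := by
        rintro _ ⟨t, ht, rfl⟩
        have ht' := Subgroup.mem_subgroupOf.1 ht
        refine mem_preimageAlong.2 ⟨hom_val F hφ t, ?_⟩
        rw [hg t]
        exact hCwn.conj_mem _ (mem_preimageAlong.1 ht').2 _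
      have hcard : Nat.card (preimageAlong ι Cw) ≤ Nat.card (((preimageAlong ι Cw).subgroupOf U).map φ) := by
        rw [Subgroup.card_map_of_injective (hom_inj F hφ)]
        exact le_of_eq (Nat.card_congr (Subgroup.subgroupOfEquivOfLe hTU).toEquiv).symm
      have hmapT := eq_of_le_of_card_le hTS hle hcard
      exact hαE (hNTE U trivial φ (hom_normalizerSystem hNTs hTU hUN hφ hmapT))
    · -- Frattini
      have hsyl := isSylowIn_normalizer hreal hT₀ hS hfn
      have hP₁H : imS ι (normalizerIn S U) ≤ Subgroup.normalizer (imS ι U : Set G) := by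
        rintro _ ⟨s, hs, rfl⟩
        have hs' := Subgroup.mem_subgroupOf.1 hs
        obtain ⟨hsS, hsN⟩ := mem_normalizerIn.1 hs'
        refine mem_normalizer_of_forall fun y hy' => ?_
        obtain ⟨u, hu, rfl⟩ := mem_imS.1 hy'
        refine mem_imS.2 ⟨s * u * s⁻¹, ?_, by simp⟩
        exact (Subgroup.mem_normalizer_iff.1 hsN _).1 hu
      obtain ⟨c, hcH, n', hnH, hcC, hnN, hgcn⟩ := frattini_inf hsyl hP₁H hCwn hgN
      -- the extension domain
      have hXN : normalizerIn (preimageAlong ι Cw) U ≤ Subgroup.normalizer (U : Set Ω) := inf_le_right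
      have hXS : normalizerIn (preimageAlong ι Cw) U ≤ S := (normalizerIn_le U).trans hTS
      have hU'S : U ⊔ normalizerIn (preimageAlong ι Cw) U ≤ S := sup_le hUS hXS
      have hU1 : U ≤ U ⊔ normalizerIn (preimageAlong ι Cw) U := le_sup_left
      have hX1 : normalizerIn (preimageAlong ι Cw) U ≤ U ⊔ normalizerIn (preimageAlong ι Cw) U := le_sup_right
      have hXne : ¬ normalizerIn (preimageAlong ι Cw) U ≤ U := by
        intro hXU
        have hYS : U ⊔ preimageAlong ι Cw ≤ S := sup_le hUS hTS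
        have hlt0 : U < U ⊔ preimageAlong ι Cw :=
          lt_of_le_of_ne le_sup_left fun h => hTU ((le_sup_right : preimageAlong ι Cw ≤ U ⊔ preimageAlong ι Cw).trans h.ge)
        have : Finite ↥(U ⊔ preimageAlong ι Cw) := finite_of_le hYS
        have hlt := lt_normalizerIn (hS.to_le hYS) hlt0
        obtain ⟨y, hyN, hyU⟩ := SetLike.exists_of_lt hlt
        obtain ⟨hyY, hyNN⟩ := mem_normalizerIn.1 hyN
        have hUT : U ≤ Subgroup.normalizer (preimageAlong ι Cw : Set Ω) := fun u hu => by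
          have : u ∈ normalizerIn S (preimageAlong ι Cw) := by rw [hNT]; exact hUS hu
          exact (mem_normalizerIn.1 this).2
        rw [sup_comm] at hyY
        obtain ⟨t, ht, u, hu, rfl⟩ := exists_mul_of_mem_sup hUT hyY
        have htN : t ∈ Subgroup.normalizer (U : Set Ω) := by
          have h1 : t = (t * u) * u⁻¹ := by group
          rw [h1]
          exact Subgroup.mul_mem _ hyNN (Subgroup.inv_mem _ (Subgroup.le_normalizer hu))
        have htU : t ∈ U := hXU (mem_normalizerIn.2 ⟨ht, htN⟩)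
        exact hyU (U.mul_mem htU hu)
      have hlt : Nat.card U < Nat.card ↥(U ⊔ normalizerIn (preimageAlong ι Cw) U) :=
        card_lt_of_lt hU'S (lt_of_le_of_ne le_sup_left fun h => hXne (hX1.trans h.ge))
      have hiX : ∀ (t : Ω) (ht : t ∈ normalizerIn (preimageAlong ι Cw) U), n' * ι ⟨t, hXS ht⟩ * n'⁻¹ ∈ ι.range := by
        intro t ht
        obtain ⟨htT, htN⟩ := mem_normalizerIn.1 ht
        have h1 : ι ⟨t, hXS ht⟩ ∈ imS ι (normalizerIn S U) ⊓ Cw :=
          ⟨mem_imS.2 ⟨⟨t, hXS ht⟩, mem_normalizerIn.2 ⟨hXS ht, htN⟩, rfl⟩, (mem_preimageAlong.1 htT).2⟩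
        have h2 := (Subgroup.mem_normalizer_iff.1 hnN _).1 h1
        obtain ⟨s, -, hse⟩ := mem_imS.1 h2.1
        exact ⟨s, hse⟩
      have hiUn : ∀ u : U, n' * ι ⟨u, hUS u.2⟩ * n'⁻¹ ∈ imS ι U := fun u =>
        (Subgroup.mem_normalizer_iff.1 hnH _).1 (hiU u)
      have hvn : ∀ x : ↥(U ⊔ normalizerIn (preimageAlong ι Cw) U), n' * ι ⟨x, hU'S x.2⟩ * n'⁻¹ ∈ ι.range := by
        rintro ⟨x, hx⟩
        obtain ⟨u, hu, t, ht, rfl⟩ := exists_mul_of_mem_sup hXN hx
        have e1 : ι ⟨u * t, hU'S hx⟩ = ι ⟨u, hUS hu⟩ * ι ⟨t, hXS ht⟩ := by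
          rw [← map_mul]
          rfl
        have e2 : n' * ι ⟨u * t, hU'S hx⟩ * n'⁻¹ = (n' * ι ⟨u, hUS hu⟩ * n'⁻¹) * (n' * ι ⟨t, hXS ht⟩ * n'⁻¹) := by
          rw [e1]
          group
        show n' * ι ⟨u * t, hU'S hx⟩ * n'⁻¹ ∈ ι.range
        rw [e2]
        refine Subgroup.mul_mem _ ?_ (hiX t ht)
        obtain ⟨s, -, hse⟩ := mem_imS.1 (hiUn ⟨u, hu⟩)
        exact ⟨s, hse⟩
      obtain ⟨ψn, hψn, hψnv⟩ := IsRealizedBy.exists_hom hreal hU'S n' hvn
      have hψnE := DH _ ψn hψn hlt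
      have hρE := res_mem E hψnE hU1
      have hρU : ∀ x : U, (ψn.comp (Subgroup.inclusion hU1)) x ∈ U := by
        intro x
        obtain ⟨hx, hxv⟩ := hψnv (Subgroup.inclusion hU1 x)
        have h1 : ι ⟨ψn (Subgroup.inclusion hU1 x), hx⟩ ∈ imS ι U := by
          rw [hxv]
          exact hiUn x
        exact mem_of_iota_mem_imS hι h1
      -- the centralizing part
      have hZS : ZP p S ≤ S := ZP_le S
      have hZcomm : ∀ {z : Ω}, z ∈ ZP p S → ∀ {t : Ω}, t ∈ S → t * z = z * t := fun hz _ ht => ZP_comm hz ht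
      have hZN : ZP p S ≤ Subgroup.normalizer (U : Set Ω) := fun z hz => by
        refine mem_normalizer_of_forall fun x hx => ?_
        have h1 := hZcomm hz (hUS hx)
        have h2 : z * x * z⁻¹ = x := by rw [← h1]; group
        rw [h2]
        exact hx
      have hUZS : U ⊔ ZP p S ≤ S := sup_le hUS hZS
      have hU2 : U ≤ U ⊔ ZP p S := le_sup_left
      have hZ2 : ZP p S ≤ U ⊔ ZP p S := le_sup_right
      have hcz : ∀ (z : Ω) (hz : z ∈ ZP p S), c * ι ⟨z, hZS hz⟩ * c⁻¹ = ι ⟨z, hZS hz⟩ := by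
        intro z hz
        have h1 : ι ⟨z, hZS hz⟩ ∈ W := (mem_preimageAlong.1 (hZPW hz)).2
        rw [hCw] at hcC
        have h2 := Subgroup.mem_centralizer_iff.1 hcC _ h1
        rw [← h2]
        group
      have hiUc : ∀ u : U, c * ι ⟨u, hUS u.2⟩ * c⁻¹ ∈ imS ι U := fun u =>
        (Subgroup.mem_normalizer_iff.1 hcH _).1 (hiU u)
      have hvc : ∀ x : ↥(U ⊔ ZP p S), c * ι ⟨x, hUZS x.2⟩ * c⁻¹ ∈ ι.range := by
        rintro ⟨x, hx⟩
        obtain ⟨u, hu, z, hz, rfl⟩ := exists_mul_of_mem_sup hZN hx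
        have e1 : ι ⟨u * z, hUZS hx⟩ = ι ⟨u, hUS hu⟩ * ι ⟨z, hZS hz⟩ := by
          rw [← map_mul]
          rfl
        have e2 : c * ι ⟨u * z, hUZS hx⟩ * c⁻¹ = (c * ι ⟨u, hUS hu⟩ * c⁻¹) * (c * ι ⟨z, hZS hz⟩ * c⁻¹) := by
          rw [e1]
          group
        show c * ι ⟨u * z, hUZS hx⟩ * c⁻¹ ∈ ι.range
        rw [e2, hcz z hz]
        refine Subgroup.mul_mem _ ?_ ⟨_, rfl⟩
        obtain ⟨s, -, hse⟩ := mem_imS.1 (hiUc ⟨u, hu⟩)
        exact ⟨s, hse⟩
      obtain ⟨ψc, hψc, hψcv⟩ := IsRealizedBy.exists_hom hreal hUZS c hvc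
      have hSC : ∀ {s : Ω}, s ∈ S → s ∈ centralizerIn S (ZP p S) := fun {s} hs =>
        mem_centralizerIn.2 ⟨hs, fun y hy' => (hZcomm hy' hs).symm⟩
      have hφcC : ψc.comp (Subgroup.inclusion hU2) ∈ F.centralizerHom (ZP p S) U := by
        refine ⟨res_mem F hψc hU2, fun u hu => hSC (hUS hu), fun x => hSC (hom_val F hψc _), ψc, hψc, fun x => rfl, fun z => ?_⟩
        obtain ⟨hx, hxv⟩ := hψcv (Subgroup.inclusion hZ2 z)
        have h1 : ι ⟨ψc (Subgroup.inclusion hZ2 z), hx⟩ = ι ⟨z, hZS z.2⟩ := by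
          rw [hxv]
          exact hcz z z.2
        exact congrArg Subtype.val (hι h1)
      have hφcE := hy.hC U hφcC
      refine hαE (comp_val E hρE hφcE hρU fun x => ?_)
      -- compare in `G`
      obtain ⟨hx₁, hx₁v⟩ := hψnv (Subgroup.inclusion hU1 x)
      have hρx : (⟨(ψn.comp (Subgroup.inclusion hU1)) x, hρU x⟩ : U) = ⟨ψn (Subgroup.inclusion hU1 x), hρU x⟩ := rfl
      obtain ⟨hx₂, hx₂v⟩ := hψcv (Subgroup.inclusion hU2 ⟨ψn (Subgroup.inclusion hU1 x), hρU x⟩)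
      have h1 : ι ⟨φ x, hom_val F hφ x⟩ = ι ⟨ψc (Subgroup.inclusion hU2 ⟨ψn (Subgroup.inclusion hU1 x), hρU x⟩), hx₂⟩ := by
        rw [hg x, hx₂v, hgcn]
        have h2 : ι ⟨((Subgroup.inclusion hU2 ⟨ψn (Subgroup.inclusion hU1 x), hρU x⟩ : ↥(U ⊔ ZP p S)) : Ω), hUZS (Subgroup.inclusion hU2 ⟨ψn (Subgroup.inclusion hU1 x), hρU x⟩).2⟩
            = n' * ι ⟨x, hUS x.2⟩ * n'⁻¹ := hx₁v
        rw [h2]
        group
      exact congrArg Subtype.val (hι h1)

/-- **Main theorem in hypothesis form.** -/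
theorem genIH_all (p : ℕ) [Fact p.Prime] (Ω : Type u) [Group Ω] : ∀ n, GenIH p Ω n := by
  intro n
  induction n with
  | zero =>
    intro S _ hS F hF hm
    omega
  | succ n ih =>
    intro S _ hS F hF hm E hy
    have hn : 2 * Nat.card S - Nat.card F.core ≤ n := by omega
    by_cases hcon : F.IsConstrained p
    · exact constrained_case ih hn hS hF hy hcon
    · exact nonconstrained_case ih hn hS hF hy hcon

end Cfsg.Agent.Lib.GenJ
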