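import Cfsg.Agent.Lib.Fusion.GlaubJ
import Cfsg.Agent.Lib.Fusion.SylowIn
import Mathlib

/-! # Local lemmas: quadratic elements and `℧¹` of abelian normal subgroups; Frattini -/

set_option autoImplicit false

namespace Cfsg.Agent.Lib.GenJ

open Cfsg Cfsg.Agent.Lib.Fusion
open Cfsg.Agent.Lib.FrobThm (AA JJ EA EA.sup EA.mono le_JJ JJ_le thompson_replacement thompsonSubgroupAOf_eq_JJ)
open scoped commutatorElement

section

variable {G : Type*} [Group G] {p : ℕ} [Fact p.Prime]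

/-- Thompson: an abelian subgroup of largest order not centralizing `V` yields a quadratic element. -/
theorem exists_quadratic [Finite G] {e : ℕ} {T V : Subgroup G} (hT : IsPGroup p T) (hVT : V ≤ T) (hVE : EA e V)
    (hTV : T ≤ Subgroup.normalizer (V : Set G))
    (hex : ∃ A ∈ AA e T, ¬ ∀ a ∈ A, ∀ v ∈ V, a * v = v * a) :
    ∃ g ∈ T, (∃ v ∈ V, g * v ≠ v * g) ∧ ∀ v ∈ V, g * (g * v * g⁻¹ * v⁻¹) = (g * v * g⁻¹ * v⁻¹) * g := by
  obtain ⟨A, ⟨hA, hAc⟩, hmax⟩ := exists_max_of_bdd (C := {A | A ∈ AA e T ∧ ¬ ∀ a ∈ A, ∀ v ∈ V, a * v = v * a})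
    (by obtain ⟨A, hA, hAD⟩ := hex; exact ⟨A, hA, hAD⟩) (fun A => Nat.card (A ⊓ V : Subgroup G)) (Nat.card V)
    (fun A _ => Nat.card_le_card_of_injective (Subgroup.inclusion (inf_le_right : A ⊓ V ≤ V)) (Subgroup.inclusion_injective _))
  have hVN : V ≤ Subgroup.normalizer (A : Set G) := by
    by_contra hnot
    obtain ⟨A', hA', hcard, hA'N⟩ := thompson_replacement hT hA hVT hVE (hA.1.trans hTV) hnot
    have hA'D : ∀ a ∈ A', ∀ v ∈ V, a * v = v * a := by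
      by_contra hA'D
      have : Nat.card (A' ⊓ V : Subgroup G) ≤ Nat.card (A ⊓ V : Subgroup G) := hmax A' ⟨hA', hA'D⟩
      omega
    apply hnot
    refine le_trans ?_ hA'N
    have hE := EA.sup hA'.2.1 hVE hA'D
    have hle : A' ⊔ V ≤ T := sup_le hA'.1 hVT
    have hc := hA'.2.2 _ hle hE
    have heq : A' = A' ⊔ V := eq_of_le_of_card_le (S := A' ⊔ V) le_rfl le_sup_left hc
    rw [heq]
    exact le_sup_right
  push Not at hAc
  obtain ⟨g, hgA, v₀, hv₀, hne⟩ := hAc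
  refine ⟨g, hA.1 hgA, ⟨v₀, hv₀, hne⟩, fun v hv => ?_⟩
  have h1 : v * g⁻¹ * v⁻¹ ∈ A := Cfsg.Agent.Lib.FrobThm.conj_mem_of_mem_normalizer (hVN hv) (A.inv_mem hgA)
  have h2 : g * v * g⁻¹ * v⁻¹ = g * (v * g⁻¹ * v⁻¹) := by group
  rw [h2]
  exact hA.2.1.1 _ hgA _ (A.mul_mem hgA h1)

/-- The power argument. -/
theorem centralizes_of_power {V : Subgroup G} {g : G} (hVc : ∀ a ∈ V, ∀ b ∈ V, a * b = b * a)
    (hgV : g ∈ Subgroup.normalizer (V : Set G))
    (hq : ∀ v ∈ V, g * (g * v * g⁻¹ * v⁻¹) = (g * v * g⁻¹ * v⁻¹) * g)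
    (hH : ∀ n : ℕ, (∀ y ∈ powerClosure p 1 V, g ^ n * y = y * g ^ n) → ∀ v ∈ V, g ^ n * v = v * g ^ n) :
    ∀ k : ℕ, (∀ v ∈ V, g ^ (p ^ k) * v = v * g ^ (p ^ k)) → ∀ v ∈ V, g * v = v * g := by
  -- the commutator map
  let f : G → G := fun v => g * v * g⁻¹ * v⁻¹
  have hfV : ∀ v ∈ V, f v ∈ V := fun v hv =>
    V.mul_mem ((Subgroup.mem_normalizer_iff.1 hgV v).1 hv) (V.inv_mem hv)
  -- conjugation by powers
  have hpow : ∀ (n : ℕ), ∀ v ∈ V, g ^ n * v * (g ^ n)⁻¹ = f v ^ n * v := by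
    intro n v hv
    induction n with
    | zero => simp
    | succ n ih =>
      have hcomm : Commute g (f v) := hq v hv
      have h1 : g ^ (n + 1) * v * (g ^ (n + 1))⁻¹ = g * (g ^ n * v * (g ^ n)⁻¹) * g⁻¹ := by
        rw [pow_succ']
        group
      rw [h1, ih]
      have h2 : g * (f v ^ n * v) * g⁻¹ = f v ^ n * (g * v * g⁻¹) := by
        have h3 : g * f v ^ n = f v ^ n * g := (hcomm.pow_right n).eq
        calc g * (f v ^ n * v) * g⁻¹ = (g * f v ^ n) * v * g⁻¹ := by group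
          _ = f v ^ n * g * v * g⁻¹ := by rw [h3]
          _ = f v ^ n * (g * v * g⁻¹) := by group
      rw [h2]
      have h4 : g * v * g⁻¹ = f v * v := by
        show g * v * g⁻¹ = g * v * g⁻¹ * v⁻¹ * v
        group
      rw [h4, pow_succ]
      group
  have hiff : ∀ (n : ℕ), ∀ v ∈ V, g ^ n * v = v * g ^ n ↔ f v ^ n = 1 := by
    intro n v hv
    have h1 := hpow n v hv
    constructor
    · intro h
      have h2 : g ^ n * v * (g ^ n)⁻¹ = v := by rw [h]; group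
      rw [h2] at h1
      exact (mul_eq_right.1 h1.symm)
    · intro h
      rw [h, one_mul] at h1
      calc g ^ n * v = g ^ n * v * (g ^ n)⁻¹ * g ^ n := by group
        _ = v * g ^ n := by rw [h1]
  -- `f(v^p) = f(v)^p`
  have hfp : ∀ v ∈ V, ∀ m : ℕ, f (v ^ m) = f v ^ m := by
    intro v hv m
    have hfvV := hfV v hv
    have hc : Commute (f v) v := hVc _ hfvV _ hv
    have h4 : g * v * g⁻¹ = f v * v := by
      show g * v * g⁻¹ = g * v * g⁻¹ * v⁻¹ * v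
      group
    have h5 : g * v ^ m * g⁻¹ = (g * v * g⁻¹) ^ m := by
      simp [conj_pow]
    show g * v ^ m * g⁻¹ * (v ^ m)⁻¹ = _
    rw [h5, h4, hc.mul_pow]
    group
  intro k
  induction k with
  | zero =>
    intro h
    simpa using h
  | succ k ih =>
    intro h
    apply ih
    refine hH _ ?_
    -- `g^(p^k)` centralizes `℧¹ V`
    intro y hy
    have hle : powerClosure p 1 V ≤ Subgroup.centralizer ({g ^ (p ^ k)} : Set G) := by
      refine (Subgroup.closure_le _).2 ?_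
      rintro _ ⟨x, hx, rfl⟩
      rw [SetLike.mem_coe, Subgroup.mem_centralizer_singleton_iff]
      rw [pow_one]
      have hVp : x ^ p ∈ V := V.pow_mem hx p
      have h1 := (hiff (p ^ (k + 1)) x hx).1 (h x hx)
      refine ((hiff (p ^ k) _ hVp).2 ?_).symm ▸ ?_
      · rw [hfp x hx, ← pow_mul, ← pow_succ']
        exact h1
      · rfl
    have := Subgroup.mem_centralizer_singleton_iff.1 (hle hy)
    exact this.symm

/-- Abelian subgroups of largest order centralize an abelian normal subgroup on whose `℧¹` the group acts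
as faithfully as on itself. -/
theorem aa_centralizes [Finite G] {e : ℕ} {T V : Subgroup G} (hT : IsPGroup p T) (hVT : V ≤ T) (hVE : EA e V)
    (hTV : T ≤ Subgroup.normalizer (V : Set G))
    (hH : ∀ h ∈ T, (∀ y ∈ powerClosure p 1 V, h * y = y * h) → ∀ v ∈ V, h * v = v * h) :
    ∀ A ∈ AA e T, ∀ a ∈ A, ∀ v ∈ V, a * v = v * a := by
  by_contra hcon
  push Not at hcon
  obtain ⟨A, hA, a, ha, v, hv, hne⟩ := hcon
  obtain ⟨g, hgT, ⟨v₀, hv₀, hne₀⟩, hq⟩ := exists_quadratic hT hVT hVE hTV ⟨A, hA, fun h => hne (h a ha v hv)⟩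
  obtain ⟨k, hk⟩ := hT ⟨g, hgT⟩
  have hk' : g ^ (p ^ k) = 1 := congrArg Subtype.val hk
  refine hne₀ (centralizes_of_power (p := p) hVE.1 (hTV hgT) hq (fun n hn => hH _ (T.pow_mem hgT n) hn) k ?_ v₀ hv₀)
  intro v _
  rw [hk']
  simp

/-- Frattini argument for the intersection with a normal subgroup. -/
theorem frattini_inf [Finite G] {H C P₁ : Subgroup G} (hP : IsSylowIn p P₁ H) (hP₁H : P₁ ≤ H) (hC : C.Normal)
    {g : G} (hg : g ∈ H) :
    ∃ c ∈ H, ∃ n ∈ H, c ∈ C ∧ n ∈ Subgroup.normalizer ((P₁ ⊓ C : Subgroup G) : Set G) ∧ g = c * n := by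
  have hY : ((H ⊓ C).subgroupOf H).Normal := by
    refine ⟨fun x hx h => ?_⟩
    have hx' := Subgroup.mem_subgroupOf.1 hx
    refine Subgroup.mem_subgroupOf.2 ⟨(H.mul_mem (H.mul_mem h.2 x.2) (H.inv_mem h.2)), ?_⟩
    exact hC.conj_mem _ hx'.2 _
  have hs := IsSylowIn.inf_normal hP hP₁H (inf_le_left : H ⊓ C ≤ H) hY
  have hReq : P₁ ⊓ (H ⊓ C) = P₁ ⊓ C := by
    apply le_antisymm
    · exact inf_le_inf_left _ inf_le_right
    · rintro x ⟨hx, hxC⟩
      exact ⟨hx, hP₁H hx, hxC⟩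
  rw [hReq] at hs
  have hRp : IsPGroup p (P₁ ⊓ C : Subgroup G) := (hP.isPGroup hP₁H).to_le inf_le_left
  have hW : IsPGroup p (conjSub g (P₁ ⊓ C)) := hRp.map _
  have hWY : conjSub g (P₁ ⊓ C) ≤ H ⊓ C := by
    rintro _ ⟨r, ⟨hr, hrC⟩, rfl⟩
    exact ⟨H.mul_mem (H.mul_mem hg (hP₁H hr)) (H.inv_mem hg), hC.conj_mem _ hrC _⟩
  obtain ⟨β, hβ, hβv⟩ := hs.exists_conj_le hW hWY
  refine ⟨β⁻¹, H.inv_mem hβ.1, β * g, H.mul_mem hβ.1 hg, C.inv_mem hβ.2, ?_, by group⟩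
  refine mem_normalizer_of_forall fun r hr => ?_
  have h1 := hβv _ (conj_mem_conjSub (g := g) hr)
  have h2 : β * g * r * (β * g)⁻¹ = β * (g * r * g⁻¹) * β⁻¹ := by group
  rw [h2]
  exact h1

end

end Cfsg.Agent.Lib.GenJ
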