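import Cfsg.Agent.Lib.GenJ.Step
import Cfsg.Agent.Lib.Fusion.ModelUse
import Mathlib

/-! # Generation by `C_F(℧¹ Z(S))` and `N_F(J(S))`: the constrained case -/

set_option autoImplicit false

namespace Cfsg.Agent.Lib.GenJ

open Cfsg Cfsg.FusionSystem Cfsg.Agent.Lib.Fusion
open Cfsg.Agent.Lib.FrobThm (AA JJ EA EA.sup EA.mono le_JJ JJ_le thompson_replacement thompsonSubgroupAOf_eq_JJ)

universe u

section group

variable {G : Type*} [Group G] [Finite G] {p : ℕ} [Fact p.Prime]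

/-- The group data of a model. -/
theorem model_group_facts {P : Subgroup G} (hP : ∃ T₀ : Sylow p G, (T₀ : Subgroup G) = P)
    (hC : Subgroup.centralizer ((pCore p G : Subgroup G) : Set G) ≤ pCore p G) :
    ∃ R : Subgroup G, R.Normal ∧ R ≤ pCore p G ∧ (∀ x ∈ R, ∀ y ∈ pCore p G, x * y = y * x) ∧
      (∀ z ∈ P, (∀ t ∈ P, t * z = z * t) → z ∈ R) ∧ EA (Nat.card G) R := by
  obtain ⟨T₀, rfl⟩ := hP
  have hQn : (pCore p G).Normal := Lib.Core.pCore_normal p G
  have hQP : pCore p G ≤ (T₀ : Subgroup G) := Lib.Core.pCore_le_sylow T₀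
  let V : Subgroup G := pCore p G ⊓ Subgroup.centralizer ((pCore p G : Subgroup G) : Set G)
  have hVn : V.Normal := by
    refine ⟨fun a ha g => ⟨hQn.conj_mem a ha.1 g, Subgroup.mem_centralizer_iff.2 fun y hy => ?_⟩⟩
    have h1 := Subgroup.mem_centralizer_iff.1 ha.2 _ (hQn.conj_mem y hy g⁻¹)
    have h2 : g⁻¹ * y * g⁻¹⁻¹ * a = a * (g⁻¹ * y * g⁻¹⁻¹) := h1
    calc y * (g * a * g⁻¹) = g * (g⁻¹ * y * g⁻¹⁻¹ * a) * g⁻¹ := by group
      _ = g * (a * (g⁻¹ * y * g⁻¹⁻¹)) * g⁻¹ := by rw [h2]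
      _ = g * a * g⁻¹ * y := by group
  have hVQ : V ≤ pCore p G := inf_le_left
  have hVc : ∀ x ∈ V, ∀ y ∈ pCore p G, x * y = y * x := fun x hx y hy =>
    (Subgroup.mem_centralizer_iff.1 hx.2 y hy).symm
  refine ⟨V, hVn, hVQ, hVc, fun z hz hzc => ?_, ⟨fun a ha b hb => hVc a ha b (hVQ hb), fun a _ => pow_card_eq_one'⟩⟩
  have h1 : z ∈ Subgroup.centralizer ((pCore p G : Subgroup G) : Set G) :=
    Subgroup.mem_centralizer_iff.2 fun y hy => hzc y (hQP hy)
  exact ⟨hC h1, h1⟩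

/-- `℧¹` of a normal subgroup is normal. -/
theorem powerClosure_normal {R : Subgroup G} (hR : R.Normal) (p : ℕ) : (powerClosure p 1 R).Normal := by
  refine ⟨fun y hy g => ?_⟩
  have hle : powerClosure p 1 R ≤ (powerClosure p 1 R).comap (MulAut.conj g).toMonoidHom := by
    refine (Subgroup.closure_le _).2 ?_
    rintro _ ⟨x, hx, rfl⟩
    show g * x ^ (p ^ 1) * g⁻¹ ∈ powerClosure p 1 R
    rw [← conj_pow]
    exact Subgroup.subset_closure ⟨_, hR.conj_mem x hx g, rfl⟩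
  exact hle hy

theorem centralizer_normal' {W : Subgroup G} (hW : W.Normal) : (Subgroup.centralizer (W : Set G)).Normal := by
  refine ⟨fun a ha g => Subgroup.mem_centralizer_iff.2 fun y hy => ?_⟩
  have h1 := Subgroup.mem_centralizer_iff.1 ha _ (hW.conj_mem y hy g⁻¹)
  have h2 : g⁻¹ * y * g⁻¹⁻¹ * a = a * (g⁻¹ * y * g⁻¹⁻¹) := h1
  calc y * (g * a * g⁻¹) = g * (g⁻¹ * y * g⁻¹⁻¹ * a) * g⁻¹ := by group
    _ = g * (a * (g⁻¹ * y * g⁻¹⁻¹)) * g⁻¹ := by rw [h2]
    _ = g * a * g⁻¹ * y := by group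

theorem powerClosure_le {R : Subgroup G} (p : ℕ) : powerClosure p 1 R ≤ R := by
  refine (Subgroup.closure_le _).2 ?_
  rintro _ ⟨x, hx, rfl⟩
  exact R.pow_mem hx _

/-- The key local fact. -/
theorem jj_le_pCore {P R : Subgroup G} (hP : ∃ T₀ : Sylow p G, (T₀ : Subgroup G) = P) (hRn : R.Normal) (hRQ : R ≤ pCore p G)
    (hRc : ∀ x ∈ R, ∀ y ∈ pCore p G, x * y = y * x) (hRE : EA (Nat.card G) R)
    (h : ∀ t ∈ P, t ∈ Subgroup.centralizer (powerClosure p 1 R : Set G) → t ∈ pCore p G) :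
    JJ (Nat.card G) P ≤ pCore p G := by
  obtain ⟨T₀, rfl⟩ := hP
  have hQP : pCore p G ≤ (T₀ : Subgroup G) := Lib.Core.pCore_le_sylow T₀
  have hTN : (T₀ : Subgroup G) ≤ Subgroup.normalizer (R : Set G) := by
    rw [Subgroup.normalizer_eq_top_iff.2 hRn]
    exact le_top
  have h1 := aa_centralizes (p := p) T₀.isPGroup' (hRQ.trans hQP) hRE hTN (fun t ht hc v hv =>
    (hRc v hv t (h t ht (Subgroup.mem_centralizer_iff.2 fun y hy => (hc y hy).symm))).symm)
  refine sSup_le fun A hA a ha => h a (hA.1 ha) (Subgroup.mem_centralizer_iff.2 fun y hy => ?_)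
  exact (h1 A hA a ha y (powerClosure_le p hy)).symm

end group

section model

variable {Ω : Type u} [Group Ω] {S : Subgroup Ω} [Finite S] {F : FusionSystem S} {p : ℕ} [Fact p.Prime]
  {G : Type u} [Group G] {ι : S →* G}

/-- The image of a subgroup in the model. -/
abbrev imS (ι : S →* G) (V : Subgroup Ω) : Subgroup G := (V.subgroupOf S).map ι

theorem mem_imS {V : Subgroup Ω} {y : G} : y ∈ imS ι V ↔ ∃ s : S, (s : Ω) ∈ V ∧ ι s = y := by
  constructor
  · rintro ⟨s, hs, rfl⟩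
    exact ⟨s, Subgroup.mem_subgroupOf.1 hs, rfl⟩
  · rintro ⟨s, hs, rfl⟩
    exact ⟨s, Subgroup.mem_subgroupOf.2 hs, rfl⟩

theorem card_imS (hι : Function.Injective ι) {V : Subgroup Ω} (hV : V ≤ S) : Nat.card (imS ι V) = Nat.card V := by
  rw [Subgroup.card_map_of_injective hι]
  exact Nat.card_congr (Subgroup.subgroupOfEquivOfLe hV).toEquiv

theorem mem_of_iota_mem_imS (hι : Function.Injective ι) {V : Subgroup Ω} {s : S} (h : ι s ∈ imS ι V) : (s : Ω) ∈ V := by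
  obtain ⟨s', hs', he⟩ := mem_imS.1 h
  rw [← hι he]
  exact hs'

/-- In a realizing group, normalizers of fully normalized subgroups have the expected Sylow subgroup. -/
theorem isSylowIn_normalizer [Finite G] (hreal : F.IsRealizedBy ι) {T₀ : Sylow p G} (hT₀ : (T₀ : Subgroup G) = ι.range)
    (hS : IsPGroup p S) {U : Subgroup Ω} (hfn : F.IsFullyNormalized U) :
    IsSylowIn p (imS ι (normalizerIn S U)) (Subgroup.normalizer (imS ι U : Set G)) := by
  have hUS := hfn.1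
  have hι := hreal.1
  have hNS : normalizerIn S U ≤ S := normalizerIn_le U
  have : Finite U := finite_of_le hUS
  refine isSylowIn_of_card_ge ?_ ((hS.to_subgroup _).map _) fun W hWN hWp hRW => ?_
  · rintro _ ⟨s, hs, rfl⟩
    have hs' := Subgroup.mem_subgroupOf.1 hs
    obtain ⟨hsS, hsN⟩ := mem_normalizerIn.1 hs'
    refine mem_normalizer_of_forall fun y hy => ?_
    obtain ⟨u, hu, rfl⟩ := mem_imS.1 hy
    refine mem_imS.2 ⟨s * u * s⁻¹, ?_, by simp⟩
    exact (Subgroup.mem_normalizer_iff.1 hsN _).1 hu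
  · -- conjugate `W` into the Sylow subgroup
    obtain ⟨T₂, hT₂⟩ := hWp.exists_le_sylow
    obtain ⟨g, hg⟩ := MulAction.exists_smul_eq G T₂ T₀
    have hgW : ∀ w ∈ W, g * w * g⁻¹ ∈ ι.range := by
      intro w hw
      rw [← hT₀, ← hg, Sylow.coe_subgroup_smul]
      exact ⟨w, hT₂ hw, by simp [MulAut.smul_def, MulAut.conj_apply]⟩
    have hUW : imS ι U ≤ W := (Subgroup.map_mono (Subgroup.comap_mono (le_normalizerIn hUS))).trans hRW
    -- the conjugate of `U`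
    obtain ⟨φ, hφ, hφv⟩ := IsRealizedBy.exists_hom hreal hUS g (fun x => hgW _ (hUW (mem_imS.2 ⟨⟨x, hUS x.2⟩, x.2, rfl⟩)))
    have hconj : F.IsConj U φ.range := ⟨φ, hφ, rfl⟩
    have hc := hfn.2 _ hconj
    have hrS : φ.range ≤ S := by
      rintro _ ⟨x, rfl⟩
      exact hom_val F hφ x
    have : Finite φ.range := finite_of_le hrS
    -- `gWg⁻¹` inside `N_S(φ(U))`
    let W₃ : Subgroup Ω := (((conjSub g W).comap ι).map S.subtype)
    have hW₃card : Nat.card W₃ = Nat.card W := by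
      have h1 : Nat.card W₃ = Nat.card ((conjSub g W).comap ι) := Subgroup.card_map_of_injective S.subtype_injective
      have h2 : Nat.card (((conjSub g W).comap ι).map ι) = Nat.card ((conjSub g W).comap ι) :=
        Subgroup.card_map_of_injective hι
      have h3 : ((conjSub g W).comap ι).map ι = conjSub g W := by
        refine Subgroup.map_comap_eq_self ?_
        rintro _ ⟨w, hw, rfl⟩
        exact hgW w hw
      rw [h1, ← h2, h3, card_conjSub]
    have hW₃N : W₃ ≤ normalizerIn S φ.range := by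
      rintro _ ⟨s, hs, rfl⟩
      refine mem_normalizerIn.2 ⟨s.2, mem_normalizer_of_forall ?_⟩
      rintro _ ⟨x, rfl⟩
      -- `s` corresponds to `g w g⁻¹`
      have hs' : ι s ∈ conjSub g W := hs
      obtain ⟨w, hw, hwe⟩ := hs'
      have hwe' : g * w * g⁻¹ = ι s := hwe
      have hwN := hWN hw
      have h1 : w * ι ⟨x, hUS x.2⟩ * w⁻¹ ∈ imS ι U :=
        (Subgroup.mem_normalizer_iff.1 hwN _).1 (mem_imS.2 ⟨⟨x, hUS x.2⟩, x.2, rfl⟩)
      obtain ⟨u, hu, hue⟩ := mem_imS.1 h1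
      refine ⟨⟨u, hu⟩, ?_⟩
      obtain ⟨hx, hxv⟩ := hφv ⟨u, hu⟩
      obtain ⟨hx', hxv'⟩ := hφv x
      have hmem : (s : Ω) * φ x * (s : Ω)⁻¹ ∈ S := S.mul_mem (S.mul_mem s.2 hx') (S.inv_mem s.2)
      have h2 : ι ⟨φ ⟨u, hu⟩, hx⟩ = ι ⟨(s : Ω) * φ x * (s : Ω)⁻¹, hmem⟩ := by
        rw [hxv]
        have h3 : (⟨(s : Ω) * φ x * (s : Ω)⁻¹, hmem⟩ : S) = s * ⟨φ x, hx'⟩ * s⁻¹ := rfl
        rw [h3, map_mul, map_mul, map_inv, hxv', ← hwe']
        have h4 : ι ⟨((⟨u, hu⟩ : U) : Ω), hUS hu⟩ = w * ι ⟨x, hUS x.2⟩ * w⁻¹ := hue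
        rw [h4]
        group
      exact congrArg Subtype.val (hι h2)
    have h5 : Nat.card W₃ ≤ Nat.card (normalizerIn S φ.range) := card_le_of_le (normalizerIn_le _) hW₃N
    rw [card_imS hι hNS, ← hW₃card]
    exact h5.trans hc

end model

end Cfsg.Agent.Lib.GenJ
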