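import Cfsg.Agent.Lib.GenJ.Climb
import Mathlib

/-! # Generation by `C_F(℧¹ Z(S))` and `N_F(J(S))`: the non-constrained case -/

set_option autoImplicit false

namespace Cfsg.Agent.Lib.GenJ

open Cfsg Cfsg.FusionSystem Cfsg.Agent.Lib.Fusion

universe u

variable {Ω : Type u} [Group Ω] {p : ℕ} [Fact p.Prime] {S : Subgroup Ω} [Finite S] {F E : FusionSystem S}

/-- The climbing step. -/
theorem climb_step {n : ℕ} (IH : GenIH p Ω n) (hn : 2 * Nat.card S - Nat.card F.core ≤ n) (hS : IsPGroup p S) (hF : F.IsSaturated p)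
    (hy : GenHyp p F E) (hcon : ¬ F.IsConstrained p) {U : Subgroup Ω} (hUS : U < S) (hcoreU : F.core ≤ U)
    (DH : ∀ (R : Subgroup Ω) (φ : R →* Ω), φ ∈ F.Hom R → Nat.card U < Nat.card R → φ ∈ E.Hom R)
    (hJ : JT (normalizerIn S U) ≤ U) {φ : U →* Ω} (hφ : φ ∈ F.Hom U) (hr : φ.range = U) : φ ∈ E.Hom U := by
  by_contra hφE
  have hUS' : U ≤ S := hUS.le
  have : Finite U := finite_of_le hUS'
  have : Finite (normalizerIn S U) := finite_of_le (normalizerIn_le U)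
  have hlt := lt_normalizerIn hS hUS
  have hJ₁U : JT U ≤ U := JT_le U
  have hJ₁S : JT U ≤ S := hJ₁U.trans hUS'
  have hJcore : ¬ JT U ≤ F.core := by
    intro hle
    have h1 : JT F.core = JT U := JT_eq_of_le hcoreU hle
    have h2 : F.IsNormal (JT U) := h1 ▸ isNormal_JT (isNormal_core (F := F))
    exact hcon (constrained_of_normal_JT hS hF hUS' hJ h2)
  obtain ⟨U₀, hconj, hfn⟩ := exists_fullyNormalized_conj (F := F) hJ₁S
  obtain ⟨e, he⟩ := isConj_iff.1 hconj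
  obtain ⟨e', he', χ, hχ, hχv, hχe⟩ := IsSat.extend_to_normalizer hS hF hfn he
  have hA := normalizerIn_le (S := S) (JT U)
  have hUA : normalizerIn S U ≤ normalizerIn S (JT U) := fun g hg => by
    obtain ⟨hgS, hgN⟩ := mem_normalizerIn.1 hg
    exact mem_normalizerIn.2 ⟨hgS, JT_normalized (hS.to_le hUS') hgN⟩
  have hUA' : U ≤ normalizerIn S (JT U) := (le_normalizerIn hUS').trans hUA
  have hUlt : Nat.card U < Nat.card (normalizerIn S (JT U)) :=
    lt_of_lt_of_le (card_lt_of_lt (normalizerIn_le U) hlt) (card_le_of_le hA hUA)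
  have hχE : χ ∈ E.Hom (normalizerIn S (JT U)) := DH _ χ hχ hUlt
  have hχinj := hom_inj F hχ
  have hχ₀F := res_mem F hχ hUA'
  have hχ₀E := res_mem E hχE hUA'
  obtain ⟨χ₀, hχ₀⟩ : ∃ χ₀ : U →* Ω, χ₀ = χ.comp (Subgroup.inclusion hUA') := ⟨_, rfl⟩
  rw [← hχ₀] at hχ₀F hχ₀E
  have hχ₀v : ∀ a : U, χ₀ a = χ (Subgroup.inclusion hUA' a) := fun a => by rw [hχ₀]; rfl
  have hφU : ∀ x, φ x ∈ U := fun x => hr.le ⟨x, rfl⟩
  have hcardr : Nat.card χ₀.range = Nat.card U := Nat.card_congr (isoRange hχ₀F).toEquiv.symm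
  -- the transported map
  obtain ⟨φ₂, hφ₂⟩ : ∃ φ₂ : χ₀.range →* Ω, ∀ a : U, φ₂ ⟨χ₀ a, ⟨a, rfl⟩⟩ = χ₀ ⟨φ a, hφU a⟩ := by
    refine ⟨χ₀.comp ((φ.codRestrict U hφU).comp (isoRange hχ₀F).symm.toMonoidHom), fun a => ?_⟩
    have h1 : (isoRange hχ₀F).symm ⟨χ₀ a, ⟨a, rfl⟩⟩ = a := by
      rw [MulEquiv.symm_apply_eq]
      exact Subtype.ext (isoRange_coe hχ₀F a).symm
    show χ₀ (φ.codRestrict U hφU ((isoRange hχ₀F).symm ⟨χ₀ a, ⟨a, rfl⟩⟩)) = _
    rw [h1]
    rfl
  have hφ₂F : φ₂ ∈ F.Hom χ₀.range := conj_transport hχ₀F hφ hφU hφ₂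
  have hφ₂E : φ₂ ∉ E.Hom χ₀.range := fun h => hφE (conj_transport_back hχ₀E hφU h hφ₂)
  have hφ₂r : φ₂.range = χ₀.range := by
    apply le_antisymm
    · rintro _ ⟨⟨_, a, rfl⟩, rfl⟩
      rw [hφ₂]
      exact ⟨_, rfl⟩
    · rintro _ ⟨a, rfl⟩
      have h1 : (a : Ω) ∈ φ.range := by rw [hr]; exact a.2
      obtain ⟨b, hb⟩ := h1
      refine ⟨⟨χ₀ b, ⟨b, rfl⟩⟩, ?_⟩
      rw [hφ₂]
      congr 1
      exact Subtype.ext hb
  -- `J` of the image
  have hχ₀U₀ : ∀ a : U, χ₀ a ∈ U₀ ↔ (a : Ω) ∈ JT U := by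
    intro a
    rw [hχ₀v]
    constructor
    · intro h
      obtain ⟨j, hj⟩ := e'.surjective ⟨_, h⟩
      have h1 := hχe j j.2 (hUA' (hJ₁U j.2))
      have h2 : χ ⟨j, hUA' (hJ₁U j.2)⟩ = χ (Subgroup.inclusion hUA' a) := by
        rw [h1]
        exact congrArg Subtype.val hj
      have h3 := hχinj h2
      have h4 : (j : Ω) = a := congrArg Subtype.val h3
      rw [← h4]
      exact j.2
    · intro h
      have h1 := hχe a h (hUA' a.2)
      have h2 : χ (Subgroup.inclusion hUA' a) = χ ⟨a, hUA' a.2⟩ := rfl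
      rw [h2, h1]
      exact (e' _).2
  have hJr : JT χ₀.range = U₀ := by
    apply le_antisymm
    · intro y hy
      obtain ⟨a, rfl⟩ := JT_le _ hy
      exact (hχ₀U₀ a).2 ((hom_mem_JT_range hχ₀F a).2 hy)
    · intro y hy
      have hyχ : y ∈ χ.range := by
        obtain ⟨j, hj⟩ := e'.surjective ⟨y, hy⟩
        have h1 := hχe j j.2 (hUA' (hJ₁U j.2))
        exact ⟨⟨j, hUA' (hJ₁U j.2)⟩, h1.trans (congrArg Subtype.val hj)⟩
      obtain ⟨j, hj⟩ := e'.surjective ⟨y, hy⟩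
      have h1 := hχe j j.2 (hUA' (hJ₁U j.2))
      have h2 : χ₀ ⟨j, hJ₁U j.2⟩ = y := by
        rw [hχ₀v]
        exact h1.trans (congrArg Subtype.val hj)
      rw [← h2]
      exact (hom_mem_JT_range hχ₀F ⟨j, hJ₁U j.2⟩).1 j.2
  have hU₀r : U₀ ≤ χ₀.range := hJr ▸ JT_le _
  have hrS₃ : χ₀.range ≤ normalizerIn S U₀ := by
    rintro _ ⟨a, rfl⟩
    rw [hχ₀v]
    exact hχv _
  -- the normalizer system
  obtain ⟨N₃, hN₃⟩ := Cfsg.Agent.S5096.result F U₀ hfn.1
  have hNF := hF_of_normalizer hN₃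
  have hφ₂N : φ₂ ∈ N₃.Hom χ₀.range := by
    refine hom_normalizerSystem hN₃ hU₀r hrS₃ hφ₂F ?_
    have h1 := map_JT_of_range hφ₂F hφ₂r
    rwa [hJr] at h1
  have hU₀core : ¬ U₀ ≤ F.core := by
    intro hle
    apply hJcore
    obtain ⟨ξ, hξ, hξv⟩ := F.inv_mem hχ
    intro j hj
    have hjA := hUA' (hJ₁U hj)
    have h1 : χ ⟨j, hjA⟩ ∈ F.core := by
      apply hle
      have h2 := hχe j hj hjA
      rw [h2]
      exact (e' _).2
    have h3 := StronglyClosed.map_mem (IsNormal.stronglyClosed (isNormal_core (F := F))) hξ (x := ⟨χ ⟨j, hjA⟩, ⟨_, rfl⟩⟩) h1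
    rw [hξv] at h3
    exact h3
  have hS₃ : normalizerIn S U₀ ≤ S := normalizerIn_le U₀
  have : Finite (normalizerIn S U₀) := finite_of_le hS₃
  have hcls : ∀ P, N₃.IsConj χ₀.range P → Nat.card P = Nat.card U := fun P hP => by
    rw [← Cfsg.Agent.Lib.Fusion.IsConj.card_eq hP, hcardr]
  refine hφ₂E (apply_IH IH hn hS hF hy hfn hU₀core hN₃ {P | N₃.IsConj χ₀.range P} ?_ ?_ ?_ _
    (Cfsg.Agent.Lib.Fusion.IsConj.refl hrS₃) φ₂ hφ₂N)
  · rintro P hP φ' hφ'
    exact Cfsg.Agent.Lib.Fusion.IsConj.trans hP ⟨φ', hφ', rfl⟩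
  · intro R hR Q hQ hRQ ψ hψ
    have hcR := hcls R hR
    have hQS : Q ≤ S := (hom_le N₃ hψ).trans hS₃
    refine DH _ ψ (hNF _ hψ) ?_
    by_contra hle
    push Not at hle
    rw [← hcR] at hle
    have h1 := eq_of_le_of_card_le hQS hRQ hle
    exact hQ (h1 ▸ hR)
  · intro P hP φ'' hφ''
    obtain ⟨hφ''N, hPN, hv, ψ'', hψ'', hext, hmap⟩ := hφ''
    have hcP := hcls P hP
    have hPS₃ : P ≤ normalizerIn S U₀ := hom_le N₃ hφ''N
    have hPS : P ≤ S := hPS₃.trans hS₃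
    by_cases hJP : JT (normalizerIn S U₀) ≤ P
    · have h1 : JT P = JT (normalizerIn S U₀) := JT_eq_of_le hPS₃ hJP
      -- `J(P) = U₀`
      obtain ⟨θ, hθ, rfl⟩ := hP
      have hU₀n := IsNormal.stronglyClosed (isNormal_normalizerSystem hfn.1 hN₃)
      have hJθ : JT θ.range = U₀ := by
        have hfinr : Finite χ₀.range := finite_of_le ((hom_le N₃ hθ).trans hS₃)
        have hA₁ : (U₀.subgroupOf χ₀.range).map θ ≤ U₀ := by
          rintro _ ⟨a, ha, rfl⟩
          exact StronglyClosed.map_mem hU₀n hθ (Subgroup.mem_subgroupOf.1 ha)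
        have hcard : Nat.card U₀ ≤ Nat.card ((U₀.subgroupOf χ₀.range).map θ) := by
          rw [Subgroup.card_map_of_injective (hom_inj N₃ hθ)]
          exact le_of_eq (Nat.card_congr (Subgroup.subgroupOfEquivOfLe hU₀r).toEquiv).symm
        have hA₂ := eq_of_le_of_card_le hfn.1 hA₁ hcard
        apply le_antisymm
        · intro y hy
          obtain ⟨a, rfl⟩ := JT_le _ hy
          have h2 := (hom_mem_JT_range hθ a).2 hy
          rw [hJr] at h2
          exact StronglyClosed.map_mem hU₀n hθ h2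
        · intro y hy
          rw [← hA₂] at hy
          obtain ⟨a, ha, rfl⟩ := hy
          refine (hom_mem_JT_range hθ a).1 ?_
          rw [hJr]
          exact Subgroup.mem_subgroupOf.1 ha
      have hJ₃ : JT (normalizerIn S U₀) = U₀ := h1.symm.trans hJθ
      have hS₃eq : normalizerIn S U₀ = S := by
        by_contra hne
        have hlt' := lt_normalizerIn hS (lt_of_le_of_ne hS₃ hne)
        obtain ⟨x, hxN, hxS₃⟩ := SetLike.exists_of_lt hlt'
        obtain ⟨hxS, hxNN⟩ := mem_normalizerIn.1 hxN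
        apply hxS₃
        have h2 := JT_normalized (hS.to_le hS₃) hxNN
        rw [hJ₃] at h2
        exact mem_normalizerIn.2 ⟨hxS, h2⟩
      have hJS : JT S = U₀ := by
        have h2 := hJ₃
        rwa [hS₃eq] at h2
      apply hy.hN
      rw [hJS, ← hN₃]
      exact hφ''N
    · have hltP : P < P ⊔ JT (normalizerIn S U₀) :=
        lt_of_le_of_ne le_sup_left fun h => hJP (h ▸ (le_sup_right : JT (normalizerIn S U₀) ≤ P ⊔ JT (normalizerIn S U₀)))
      have hψS := (hom_le N₃ hψ'').trans hS₃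
      have hc := card_lt_of_lt hψS hltP
      rw [hcP] at hc
      have h2 := DH _ ψ'' (hNF _ hψ'') hc
      exact hom_congr E (res_mem E h2 le_sup_left) fun x => (hext x).symm

/-- An automorphism is a map of the normalizer system of `J`. -/
theorem mem_normalizerHom_JT (hS : IsPGroup p S) {U : Subgroup Ω} {φ : U →* Ω} (hφ : φ ∈ F.Hom U) (hr : φ.range = U) :
    φ ∈ F.normalizerHom (JT U) U := by
  have hUS : U ≤ S := hom_le F hφ
  have : Finite U := finite_of_le hUS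
  have hUN : U ≤ normalizerIn S (JT U) := fun g hg =>
    mem_normalizerIn.2 ⟨hUS hg, JT_normalized (hS.to_le hUS) (Subgroup.le_normalizer hg)⟩
  have hle : U ⊔ JT U ≤ U := sup_le le_rfl (JT_le U)
  have hmap := map_JT_of_range hφ hr
  refine ⟨hφ, hUN, fun x => hUN (hr.le ⟨x, rfl⟩), φ.comp (Subgroup.inclusion hle), res_mem F hφ hle, fun x => rfl, ?_⟩
  apply le_antisymm
  · rintro _ ⟨a, ha, rfl⟩
    have ha' : (a : Ω) ∈ JT U := Subgroup.mem_subgroupOf.1 ha
    have h1 : φ ⟨a, JT_le U ha'⟩ ∈ ((JT U).subgroupOf U).map φ := ⟨_, Subgroup.mem_subgroupOf.2 ha', rfl⟩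
    rw [hmap] at h1
    exact h1
  · intro y hy
    have hy' : y ∈ ((JT U).subgroupOf U).map φ := by rwa [hmap]
    obtain ⟨a, ha, rfl⟩ := hy'
    have ha' : (a : Ω) ∈ JT U := Subgroup.mem_subgroupOf.1 ha
    exact ⟨⟨a, (le_sup_right : JT U ≤ U ⊔ JT U) ha'⟩, Subgroup.mem_subgroupOf.2 ha', rfl⟩

/-- The non-constrained case. -/
theorem nonconstrained_case {n : ℕ} (IH : GenIH p Ω n) (hn : 2 * Nat.card S - Nat.card F.core ≤ n) (hS : IsPGroup p S) (hF : F.IsSaturated p)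
    (hy : GenHyp p F E) (hcon : ¬ F.IsConstrained p) : ∀ P, F.Hom P ⊆ E.Hom P := by
  by_contra hne
  have hne' : ∃ (R : Subgroup Ω) (φ : R →* Ω), φ ∈ F.Hom R ∧ φ ∉ E.Hom R := by
    by_contra hcon'
    push Not at hcon'
    exact hne fun P φ h => hcon' P φ h
  obtain ⟨U, hfn, hcen, ⟨α, hα, hαE⟩, DH⟩ := exists_notin_max hS hF le_rfl hne'
  have hUS := hfn.1
  have : Finite U := finite_of_le hUS
  have hφ : U.subtype.comp α.toMonoidHom ∈ F.Hom U := (mem_autGroup_iff hUS).1 hα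
  have hr : (U.subtype.comp α.toMonoidHom).range = U := by
    apply le_antisymm
    · rintro _ ⟨x, rfl⟩
      exact (α x).2
    · intro x hx
      exact ⟨α.symm ⟨x, hx⟩, by simp⟩
  obtain ⟨φ, hφe⟩ : ∃ φ : U →* Ω, φ = U.subtype.comp α.toMonoidHom := ⟨_, rfl⟩
  rw [← hφe] at hφ hr hαE
  have hcoreU : F.core ≤ U := by
    by_contra hnot
    obtain ⟨ψ, hψ, hψU, -⟩ := (isNormal_core (F := F)).2 U φ hφ
    have hlt : U < U ⊔ F.core := lt_of_le_of_ne le_sup_left fun h => hnot (h ▸ (le_sup_right : F.core ≤ U ⊔ F.core))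
    have h1 := DH _ ψ hψ (card_lt_of_lt (hom_le F hψ) hlt)
    exact hαE (hom_congr E (res_mem E h1 le_sup_left) fun x => (hψU x).symm)
  by_cases hUeq : U = S
  · have h1 := mem_normalizerHom_JT hS hφ hr
    have e1 : JT U = JT S := by rw [hUeq]
    rw [e1] at h1
    exact hαE (hy.hN U h1)
  have hUlt : U < S := lt_of_le_of_ne hUS hUeq
  have hUcore : ¬ U ≤ F.core := by
    intro h
    have h1 : U = F.core := le_antisymm h hcoreU
    exact hcon ⟨hF, U, h1 ▸ isNormal_core, hcen⟩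
  obtain ⟨N₁, hN₁⟩ := Cfsg.Agent.S5096.result F U hUS
  have hNF := hF_of_normalizer hN₁
  have hφN : φ ∈ N₁.Hom U := by
    refine hom_normalizerSystem hN₁ le_rfl (le_normalizerIn hUS) hφ ?_
    rw [Subgroup.subgroupOf_self, ← MonoidHom.range_eq_map, hr]
  have : Finite (normalizerIn S U) := finite_of_le (normalizerIn_le U)
  have hwc := StronglyClosed.weaklyClosed (IsNormal.stronglyClosed (isNormal_normalizerSystem hUS hN₁))
  refine hαE (apply_IH IH hn hS hF hy hfn hUcore hN₁ {U} ?_ ?_ ?_ U rfl φ hφN)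
  · intro P hP φ' hφ'
    have hP' : U = P := Eq.symm hP
    subst hP'
    exact hwc.2 φ' hφ'
  · intro P hP Q hQ hRQ ψ hψ
    have hP' : U = P := Eq.symm hP
    subst hP'
    have hQS : Q ≤ S := (hom_le N₁ hψ).trans (normalizerIn_le U)
    exact DH _ ψ (hNF _ hψ) (card_lt_of_lt hQS (lt_of_le_of_ne hRQ fun h => hQ h.symm))
  · intro P hP φ' hφ'
    have hP' : U = P := Eq.symm hP
    subst hP'
    obtain ⟨hφ'N, hPN, hv, ψ', hψ', hext, hmap⟩ := hφ'
    by_cases hJU : JT (normalizerIn S U) ≤ U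
    · exact climb_step IH hn hS hF hy hcon hUlt hcoreU DH hJU (hNF _ hφ'N) (hwc.2 φ' hφ'N)
    · have hlt : U < U ⊔ JT (normalizerIn S U) :=
        lt_of_le_of_ne le_sup_left fun h => hJU ((le_sup_right : JT (normalizerIn S U) ≤ U ⊔ JT (normalizerIn S U)).trans h.ge)
      have hψS := (hom_le N₁ hψ').trans (normalizerIn_le U)
      have h2 := DH _ ψ' (hNF _ hψ') (card_lt_of_lt hψS hlt)
      exact hom_congr E (res_mem E h2 le_sup_left) fun x => (hext x).symm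

end Cfsg.Agent.Lib.GenJ
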