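import Cfsg.Agent.Lib.GenJ.Thompson
import Cfsg.Agent.Lib.FocalW.Loop
import Cfsg.Agent.Lib.Fusion.Join
import Cfsg.Agent.Lib.Fusion.NormSys
import Mathlib

/-! # Subsystems with prescribed maps on a class of subgroups; the measure -/

set_option autoImplicit false

namespace Cfsg.Agent.Lib.GenJ

open Cfsg Cfsg.FusionSystem Cfsg.Agent.Lib.Fusion

variable {Ω : Type*} [Group Ω] {S T : Subgroup Ω}

theorem range_of_inv {F : FusionSystem T} {P : Subgroup Ω} {φ : P →* Ω} {ψ : φ.range →* Ω}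
    (hψv : ∀ x : P, ψ ⟨φ x, ⟨x, rfl⟩⟩ = (x : Ω)) : ψ.range = P := by
  apply le_antisymm
  · rintro _ ⟨⟨_, x, rfl⟩, rfl⟩
    rw [hψv]
    exact x.2
  · intro x hx
    exact ⟨⟨φ ⟨x, hx⟩, ⟨⟨x, hx⟩, rfl⟩⟩, hψv ⟨x, hx⟩⟩

/-- The maps of `N` which on the class `D` also belong to `E`. -/
def classSys (N : FusionSystem T) (E : FusionSystem S) (hTS : T ≤ S) (D : Set (Subgroup Ω))
    (hD : ∀ P ∈ D, ∀ φ ∈ N.Hom P, φ.range ∈ D)
    (hres : ∀ R ∈ D, ∀ Q, Q ∉ D → R ≤ Q → ∀ ψ ∈ N.Hom Q, ψ ∈ E.Hom Q) : FusionSystem T where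
  Hom P := {φ | φ ∈ N.Hom P ∧ (P ∈ D → φ ∈ E.Hom P)}
  le_of_mem h := N.le_of_mem h.1
  injective_of_mem h := N.injective_of_mem h.1
  conj_mem {P g} hP hg := ⟨N.conj_mem hP hg, fun _ => E.conj_mem (hP.trans hTS) (hTS hg)⟩
  comp_mem {P Q φ ψ} hφ hψ h := by
    refine ⟨N.comp_mem hφ.1 hψ.1 h, fun hP => ?_⟩
    have hφE := hφ.2 hP
    have hR := hD P hP φ hφ.1
    have hψE : ψ ∈ E.Hom Q := by
      by_cases hQ : Q ∈ D
      · exact hψ.2 hQ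
      · exact hres _ hR Q hQ (by rintro _ ⟨x, rfl⟩; exact h x) ψ hψ.1
    exact E.comp_mem hφE hψE h
  inv_mem {P φ} hφ := by
    obtain ⟨ψ, hψ, hψv⟩ := N.inv_mem hφ.1
    refine ⟨ψ, ⟨hψ, fun hr => ?_⟩, hψv⟩
    have hP : P ∈ D := by
      have := hD _ hr ψ hψ
      rwa [range_of_inv (F := N) hψv] at this
    obtain ⟨ψ', hψ', hψ'v⟩ := E.inv_mem (hφ.2 hP)
    have : ψ = ψ' := by
      ext ⟨_, a, rfl⟩
      rw [hψv, hψ'v]
    exact this ▸ hψ'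

/-- `℧¹(Z(T))`. -/
abbrev ZP (p : ℕ) (T : Subgroup Ω) : Subgroup Ω := powerClosure p 1 (T ⊓ Subgroup.centralizer (T : Set Ω))

theorem ZP_le {p : ℕ} (T : Subgroup Ω) : ZP p T ≤ T := by
  refine (Subgroup.closure_le _).2 ?_
  rintro _ ⟨x, hx, rfl⟩
  exact T.pow_mem hx.1 _

theorem ZP_mono {p : ℕ} (hTS : T ≤ S) (hZ : S ⊓ Subgroup.centralizer (S : Set Ω) ≤ T) : ZP p S ≤ ZP p T := by
  refine Subgroup.closure_mono ?_
  rintro _ ⟨x, hx, rfl⟩
  refine ⟨x, ⟨hZ hx, ?_⟩, rfl⟩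
  exact Subgroup.mem_centralizer_iff.2 fun t ht => (Subgroup.mem_centralizer_iff.1 hx.2) t (hTS ht)

theorem ZP_comm {p : ℕ} {x : Ω} (hx : x ∈ ZP p T) {t : Ω} (ht : t ∈ T) : t * x = x * t := by
  have hle : ZP p T ≤ Subgroup.centralizer ({t} : Set Ω) := by
    refine (Subgroup.closure_le _).2 ?_
    rintro _ ⟨y, hy, rfl⟩
    rw [SetLike.mem_coe, Subgroup.mem_centralizer_singleton_iff]
    have h1 : y * t = t * y := (Subgroup.mem_centralizer_iff.1 hy.2 t ht).symm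
    exact ((Commute.pow_left h1 _)).eq
  exact (Subgroup.mem_centralizer_singleton_iff.1 (hle hx)).symm

/-- Monotonicity of centralizer maps. -/
theorem centralizerHom_mono {F : FusionSystem S} {N : FusionSystem T} (hTS : T ≤ S) (hNF : ∀ P, N.Hom P ⊆ F.Hom P)
    {Y Y' : Subgroup Ω} (hY : Y ≤ Y') {P : Subgroup Ω} {φ : P →* Ω} (h : φ ∈ N.centralizerHom Y' P) :
    φ ∈ F.centralizerHom Y P := by
  obtain ⟨hφ, hP, hv, ψ, hψ, hψP, hψY⟩ := h
  have hle : centralizerIn T Y' ≤ centralizerIn S Y := fun x hx => by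
    obtain ⟨hxT, hxc⟩ := mem_centralizerIn.1 hx
    exact mem_centralizerIn.2 ⟨hTS hxT, fun y hy => hxc y (hY hy)⟩
  have hle2 : P ⊔ Y ≤ P ⊔ Y' := sup_le_sup_left hY P
  refine ⟨hNF _ hφ, hP.trans hle, fun x => hle (hv x), ψ.comp (Subgroup.inclusion hle2), hNF _ (res_mem N hψ hle2),
    fun x => hψP x, fun x => hψY ⟨x, hY x.2⟩⟩

variable {p : ℕ} [Fact p.Prime]

/-- Values of a map normalizing `U` normalize `U`. -/
theorem map_mem_normalizerIn [Finite S] {F : FusionSystem S} {A U : Subgroup Ω} (hAS : A ≤ S) (hUS : U ≤ A) {ψ : A →* Ω}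
    (hψ : ψ ∈ F.Hom A) (hψU : (U.subgroupOf A).map ψ = U) {x : A} (hx : (x : Ω) ∈ Subgroup.normalizer (U : Set Ω)) :
    ψ x ∈ normalizerIn S U := by
  have : Finite U := finite_of_le (hUS.trans hAS)
  refine mem_normalizerIn.2 ⟨hom_val F hψ x, mem_normalizer_of_forall fun u hu => ?_⟩
  have hu' : u ∈ (U.subgroupOf A).map ψ := by rwa [hψU]
  obtain ⟨a, ha, rfl⟩ := hu'
  have ha' : (a : Ω) ∈ U := Subgroup.mem_subgroupOf.1 ha
  have h1 : x * a * x⁻¹ ∈ U.subgroupOf A := Subgroup.mem_subgroupOf.2 (by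
    show (x : Ω) * a * (x : Ω)⁻¹ ∈ U
    exact (Subgroup.mem_normalizer_iff.1 hx _).1 ha')
  have h2 : ψ (x * a * x⁻¹) ∈ (U.subgroupOf A).map ψ := ⟨_, h1, rfl⟩
  rw [hψU] at h2
  simpa [map_mul, map_inv] using h2

/-- A subgroup normal in `F` and normalizing `U` is normal in `N_F(U)`. -/
theorem isNormal_in_normalizerSystem [Finite S] {F : FusionSystem S} {U₀ Q : Subgroup Ω} (hU₀ : U₀ ≤ S) (hQn : F.IsNormal Q)
    (hQ : Q ≤ normalizerIn S U₀) {D : FusionSystem (normalizerIn S U₀)} (hD : F.IsNormalizerSystem U₀ D) : D.IsNormal Q := by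
  refine ⟨hQ, fun P φ hφ => ?_⟩
  rw [hD P] at hφ
  obtain ⟨hφF, hPN, hvN, ψ, hψ, hψP, hψU⟩ := hφ
  obtain ⟨ψ', hψ', hext, hmapQ⟩ := hQn.2 _ ψ hψ
  have hAS := hom_le F hψ'
  have hle1 : P ⊔ Q ≤ (P ⊔ U₀) ⊔ Q := sup_le (le_sup_left.trans le_sup_left) le_sup_right
  have hle2 : (P ⊔ Q) ⊔ U₀ ≤ (P ⊔ U₀) ⊔ Q :=
    sup_le hle1 (le_sup_right.trans le_sup_left)
  have hU₀A : U₀ ≤ (P ⊔ U₀) ⊔ Q := le_sup_right.trans le_sup_left
  have hU₀1 : U₀ ≤ P ⊔ U₀ := le_sup_right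
  have hP1 : P ≤ P ⊔ U₀ := le_sup_left
  have hQ1 : Q ≤ (P ⊔ U₀) ⊔ Q := le_sup_right
  have hQ2 : Q ≤ P ⊔ Q := le_sup_right
  have hψ'U : (U₀.subgroupOf ((P ⊔ U₀) ⊔ Q)).map ψ' = U₀ := by
    apply le_antisymm
    · rintro _ ⟨a, ha, rfl⟩
      have ha' : (a : Ω) ∈ U₀ := Subgroup.mem_subgroupOf.1 ha
      have h1 : (⟨a, hU₀1 ha'⟩ : ↥(P ⊔ U₀)) ∈ U₀.subgroupOf (P ⊔ U₀) := Subgroup.mem_subgroupOf.2 ha'
      have h2 : ψ ⟨a, hU₀1 ha'⟩ ∈ (U₀.subgroupOf (P ⊔ U₀)).map ψ := ⟨_, h1, rfl⟩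
      rw [hψU] at h2
      have h3 := hext ⟨a, hU₀1 ha'⟩
      have h4 : ψ' a = ψ ⟨a, hU₀1 ha'⟩ := h3
      rw [h4]
      exact h2
    · intro u hu
      have hu' : u ∈ (U₀.subgroupOf (P ⊔ U₀)).map ψ := by rwa [hψU]
      obtain ⟨a, ha, rfl⟩ := hu'
      have ha' : (a : Ω) ∈ U₀ := Subgroup.mem_subgroupOf.1 ha
      refine ⟨⟨a, hU₀A ha'⟩, Subgroup.mem_subgroupOf.2 ha', ?_⟩
      exact hext a
  have hNN : ∀ y : ↥(P ⊔ Q), (y : Ω) ∈ Subgroup.normalizer (U₀ : Set Ω) := fun y =>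
    (mem_normalizerIn.1 (sup_le hPN hQ y.2)).2
  refine ⟨ψ'.comp (Subgroup.inclusion hle1), ?_, fun x => ?_, ?_⟩
  · rw [hD]
    refine ⟨res_mem F hψ' hle1, sup_le hPN hQ, fun x => map_mem_normalizerIn hAS hU₀A hψ' hψ'U (hNN x),
      ψ'.comp (Subgroup.inclusion hle2), res_mem F hψ' hle2, fun x => rfl, ?_⟩
    apply le_antisymm
    · rintro _ ⟨a, ha, rfl⟩
      have ha' : (a : Ω) ∈ U₀ := Subgroup.mem_subgroupOf.1 ha
      have h1 : ψ' ⟨a, hU₀A ha'⟩ ∈ (U₀.subgroupOf ((P ⊔ U₀) ⊔ Q)).map ψ' := ⟨_, Subgroup.mem_subgroupOf.2 ha', rfl⟩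
      rw [hψ'U] at h1
      exact h1
    · intro u hu
      have hu' : u ∈ (U₀.subgroupOf ((P ⊔ U₀) ⊔ Q)).map ψ' := by rwa [hψ'U]
      obtain ⟨a, ha, rfl⟩ := hu'
      have ha' : (a : Ω) ∈ U₀ := Subgroup.mem_subgroupOf.1 ha
      exact ⟨⟨a, (le_sup_right : U₀ ≤ (P ⊔ Q) ⊔ U₀) ha'⟩, Subgroup.mem_subgroupOf.2 ha', rfl⟩
  · have h1 := hext ⟨x, hP1 x.2⟩
    have h2 := hψP x
    exact h1.trans h2
  · apply le_antisymm
    · rintro _ ⟨a, ha, rfl⟩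
      have ha' : (a : Ω) ∈ Q := Subgroup.mem_subgroupOf.1 ha
      have h1 : ψ' ⟨a, hQ1 ha'⟩ ∈ (Q.subgroupOf ((P ⊔ U₀) ⊔ Q)).map ψ' := ⟨_, Subgroup.mem_subgroupOf.2 ha', rfl⟩
      rw [hmapQ] at h1
      exact h1
    · intro u hu
      have hu' : u ∈ (Q.subgroupOf ((P ⊔ U₀) ⊔ Q)).map ψ' := by rwa [hmapQ]
      obtain ⟨a, ha, rfl⟩ := hu'
      have ha' : (a : Ω) ∈ Q := Subgroup.mem_subgroupOf.1 ha
      exact ⟨⟨a, hQ2 ha'⟩, Subgroup.mem_subgroupOf.2 ha', rfl⟩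

/-- The measure decreases on the normalizer system of a subgroup not in the core. -/
theorem measure_normalizer' [Finite S] {F : FusionSystem S} (hS : IsPGroup p S) {n : ℕ} (hn : 2 * Nat.card S - Nat.card F.core ≤ n)
    {U₀ : Subgroup Ω} (hU₀S : U₀ ≤ S) (hne : ¬ U₀ ≤ F.core)
    {D : FusionSystem (normalizerIn S U₀)} (hD : F.IsNormalizerSystem U₀ D) :
    2 * Nat.card (normalizerIn S U₀) - Nat.card D.core < n := by
  have hcoreS : F.core ≤ S := (isNormal_core (F := F)).1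
  have hc3 : Nat.card F.core ≤ Nat.card S := card_le_of_le le_rfl hcoreS
  have hSpos : 0 < Nat.card S := Nat.card_pos
  have : Finite (normalizerIn S U₀) := finite_of_le (normalizerIn_le U₀)
  have hU₀core : U₀ ≤ D.core := le_sSup (isNormal_normalizerSystem hU₀S hD)
  have hcorele : D.core ≤ normalizerIn S U₀ := (isNormal_core (F := D)).1
  have hc2 : Nat.card (normalizerIn S U₀) ≤ Nat.card S := card_le_of_le le_rfl (normalizerIn_le _)
  have hDpos : 0 < Nat.card D.core := by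
    have : Finite D.core := finite_of_le hcorele
    exact Nat.card_pos
  have hDle : Nat.card D.core ≤ Nat.card (normalizerIn S U₀) := card_le_of_le le_rfl hcorele
  by_cases heq : normalizerIn S U₀ = S
  · have hlt : Nat.card F.core < Nat.card D.core := by
      have hQn : D.IsNormal F.core := isNormal_in_normalizerSystem hU₀S isNormal_core (by rw [heq]; exact hcoreS) hD
      have hle : F.core ≤ D.core := le_sSup hQn
      by_contra hcon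
      push Not at hcon
      have h1 := eq_of_le_of_card_le hcorele hle hcon
      exact hne (h1 ▸ hU₀core)
    omega
  · have hdvd : Nat.card (normalizerIn S U₀) ∣ Nat.card S := Subgroup.card_dvd_of_le (normalizerIn_le U₀)
    obtain ⟨k, hk⟩ := hdvd
    have hNpos : 0 < Nat.card (normalizerIn S U₀) := Nat.card_pos
    have hk2 : 2 ≤ k := by
      by_contra hcon
      have hk1 : k = 0 ∨ k = 1 := by omega
      rcases hk1 with rfl | rfl
      · omega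
      · apply heq
        exact eq_of_le_of_card_le (le_refl S) (normalizerIn_le U₀) (by omega)
    have : 2 * Nat.card (normalizerIn S U₀) ≤ Nat.card S := by
      rw [hk]
      nlinarith
    omega

end Cfsg.Agent.Lib.GenJ
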