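import Cfsg.Agent.Lib.GenJ.Local
import Cfsg.Agent.Lib.Fusion.FrameworkThm2
import Mathlib

/-! # The abelian Thompson subgroup of a subgroup -/

set_option autoImplicit false

namespace Cfsg.Agent.Lib.GenJ

open Cfsg Cfsg.FusionSystem Cfsg.Agent.Lib.Fusion

universe u

variable {Ω : Type u} [Group Ω]

/-- `J(T)` inside the ambient group. -/
abbrev JT (T : Subgroup Ω) : Subgroup Ω := funW thompsonSubgroupA.{u} T

theorem mem_JT_iff {T : Subgroup Ω} {x : T} : (x : Ω) ∈ JT T ↔ x ∈ thompsonSubgroupA T := by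
  constructor
  · rintro ⟨y, hy, hyx⟩
    have : y = x := Subtype.ext hyx
    rwa [← this]
  · intro h
    exact ⟨x, h, rfl⟩

theorem JT_le (T : Subgroup Ω) : JT T ≤ T := funW_le _ T

/-- Invariance under isomorphisms. -/
theorem mem_JT_equiv {U U₂ : Subgroup Ω} (e : U ≃* U₂) {x : U} : (x : Ω) ∈ JT U ↔ ((e x : U₂) : Ω) ∈ JT U₂ := by
  rw [mem_JT_iff, mem_JT_iff, ← thompsonSubgroupA_map_equiv e]
  constructor
  · intro h
    exact ⟨x, h, rfl⟩
  · rintro ⟨y, hy, hyx⟩
    have : y = x := e.injective hyx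
    rwa [← this]

/-- `J(T) ≤ U ≤ T` implies `J(U) = J(T)`. -/
theorem JT_eq_of_le {U T : Subgroup Ω} [Finite T] (hUT : U ≤ T) (h : JT T ≤ U) : JT U = JT T := by
  let inc : U →* T := Subgroup.inclusion hUT
  have hinc : Function.Injective inc := Subgroup.inclusion_injective hUT
  have : Finite U := Finite.of_injective inc hinc
  have hcomm : ∀ {Y : Subgroup U}, IsMulCommutative Y → IsMulCommutative (Y.map inc) := by
    intro Y hY
    refine ⟨⟨?_⟩⟩
    rintro ⟨_, a, ha, rfl⟩ ⟨_, b, hb, rfl⟩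
    apply Subtype.ext
    have h1 : a * b = b * a := congrArg Subtype.val (hY.is_comm.comm ⟨a, ha⟩ ⟨b, hb⟩)
    show inc a * inc b = inc b * inc a
    rw [← map_mul, ← map_mul, h1]
  -- every member of `A(T)` lies in `U`
  have hXU : ∀ X ∈ maxAbelianSubgroups T, X ≤ inc.range := by
    intro X hX x hx
    have h1 : x ∈ thompsonSubgroupA T := (le_sSup hX : X ≤ thompsonSubgroupA T) hx
    have h2 : (x : Ω) ∈ U := h (mem_JT_iff.2 h1)
    exact ⟨⟨x, h2⟩, rfl⟩
  have hmapcomap : ∀ X ∈ maxAbelianSubgroups T, (X.comap inc).map inc = X := fun X hX =>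
    Subgroup.map_comap_eq_self (hXU X hX)
  have hdown : ∀ X ∈ maxAbelianSubgroups T, X.comap inc ∈ maxAbelianSubgroups U := by
    intro X hX
    refine ⟨?_, fun B hB => ?_⟩
    · refine ⟨⟨?_⟩⟩
      rintro ⟨a, ha⟩ ⟨b, hb⟩
      apply Subtype.ext
      apply Subtype.ext
      have h1 := hX.1.is_comm.comm ⟨inc a, ha⟩ ⟨inc b, hb⟩
      have h2 := congrArg (fun z : X => ((z : T) : Ω)) h1
      exact h2
    · have h1 := hX.2 _ (hcomm hB)
      rw [Subgroup.card_map_of_injective hinc] at h1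
      refine h1.trans (le_of_eq ?_)
      conv_lhs => rw [← hmapcomap X hX]
      exact Subgroup.card_map_of_injective hinc
  have hup : ∀ B ∈ maxAbelianSubgroups U, B.map inc ∈ maxAbelianSubgroups T := by
    intro B hB
    refine ⟨hcomm hB.1, fun Y hY => ?_⟩
    obtain ⟨A, hA⟩ := exists_mem_maxAbelian T
    have h1 := hA.2 Y hY
    have h2 := hB.2 _ (hdown A hA).1
    rw [Subgroup.card_map_of_injective hinc]
    refine h1.trans (le_trans (le_of_eq ?_) h2)
    conv_lhs => rw [← hmapcomap A hA]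
    exact Subgroup.card_map_of_injective hinc
  have hsub : T.subtype.comp inc = U.subtype := rfl
  apply le_antisymm
  · have h1 : thompsonSubgroupA U ≤ (thompsonSubgroupA T).comap inc := by
      refine sSup_le fun B hB b hb => ?_
      exact (le_sSup (hup B hB) : B.map inc ≤ thompsonSubgroupA T) ⟨b, hb, rfl⟩
    rintro _ ⟨u, hu, rfl⟩
    exact ⟨inc u, h1 hu, rfl⟩
  · have h1 : thompsonSubgroupA T ≤ (thompsonSubgroupA U).map inc := by
      refine sSup_le fun X hX x hx => ?_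
      have hx' : x ∈ (X.comap inc).map inc := by rwa [hmapcomap X hX]
      obtain ⟨u, hu, rfl⟩ := hx'
      exact ⟨u, (le_sSup (hdown X hX) : X.comap inc ≤ thompsonSubgroupA U) hu, rfl⟩
    rintro _ ⟨t, ht, rfl⟩
    obtain ⟨u, hu, rfl⟩ := h1 ht
    exact ⟨u, hu, rfl⟩

/-- `J(T)` is normalized by the normalizer of `T`. -/
theorem JT_normalized {p : ℕ} [Fact p.Prime] {T : Subgroup Ω} [Finite T] (hT : IsPGroup p T) {g : Ω}
    (hg : g ∈ Subgroup.normalizer (T : Set Ω)) : g ∈ Subgroup.normalizer (JT T : Set Ω) :=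
  funW_normalized thompsonSubgroupA_inv hT hg

end Cfsg.Agent.Lib.GenJ
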